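import Mathlib.RingTheory.MvPolynomial.Symmetric.Defs
import Mathlib.Algebra.Order.Group.Int.Sum
import Mathlib.Algebra.Order.Antidiag.Pi
import Mathlib.LinearAlgebra.Vandermonde
import Mathlib.GroupTheory.Perm.Centralizer
import Mathlib.RingTheory.Polynomial.Pochhammer
import Mathlib.Tactic

/-! Frobenius' character formula, combinatorial part: coefficients of `a_δ p_μ`. -/

set_option autoImplicit false

namespace Cfsg.Agent.Sym

open Finset Equiv Function MvPolynomial

variable {m : ℕ}

/-- A function on `Fin m` as an exponent vector. -/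
noncomputable def fs (b : Fin m → ℕ) : Fin m →₀ ℕ := Finsupp.equivFunOnFinite.symm b

@[simp] theorem fs_apply (b : Fin m → ℕ) (i : Fin m) : fs b i = b i := rfl

theorem fs_inj {b c : Fin m → ℕ} : fs b = fs c ↔ b = c := Finsupp.equivFunOnFinite.symm.injective.eq_iff

/-- The alternant `a_δ`. -/
noncomputable def vd (m : ℕ) : MvPolynomial (Fin m) ℤ :=
  ∑ σ : Perm (Fin m), monomial (fs fun i => (σ i : ℕ)) (Perm.sign σ : ℤ)

/-- The power sum `p_μ`. -/
noncomputable def pp (m : ℕ) (μ : Multiset ℕ) : MvPolynomial (Fin m) ℤ :=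
  (μ.map (psum (Fin m) ℤ)).prod

/-- The coefficient of `x^b` in `p_μ a_δ`. -/
noncomputable def cf (μ : Multiset ℕ) (b : Fin m → ℕ) : ℤ := coeff (fs b) (pp m μ * vd m)

theorem coeff_psum_mul (k : ℕ) (P : MvPolynomial (Fin m) ℤ) (b : Fin m → ℕ) :
    coeff (fs b) (psum (Fin m) ℤ k * P) =
      ∑ i, if k ≤ b i then coeff (fs (update b i (b i - k))) P else 0 := by
  rw [psum, sum_mul, coeff_sum]
  refine sum_congr rfl fun i _ => ?_
  rw [X_pow_eq_monomial, coeff_monomial_mul', one_mul]
  refine if_congr (by rw [Finsupp.single_le_iff, fs_apply]) ?_ rfl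
  congr 1
  ext j
  by_cases h : j = i
  · subst h; simp
  · simp [h]

theorem cf_zero (b : Fin m → ℕ) :
    cf 0 b = ∑ σ : Perm (Fin m), if (fun i => (σ i : ℕ)) = b then (Perm.sign σ : ℤ) else 0 := by
  simp only [cf, pp, Multiset.map_zero, Multiset.prod_zero, one_mul, vd, coeff_sum, coeff_monomial,
    fs_inj]

theorem cf_cons (k : ℕ) (μ : Multiset ℕ) (b : Fin m → ℕ) :
    cf (k ::ₘ μ) b = ∑ i, if k ≤ b i then cf μ (update b i (b i - k)) else 0 := by
  rw [cf, pp, Multiset.map_cons, Multiset.prod_cons, mul_assoc, coeff_psum_mul]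
  rfl

/-- Antisymmetric functions. -/
def Anti (F : (Fin m → ℕ) → ℤ) : Prop := ∀ (σ : Perm (Fin m)) b, F (b ∘ σ) = Perm.sign σ * F b

theorem Anti.eq_zero {F : (Fin m → ℕ) → ℤ} (h : Anti F) {b : Fin m → ℕ} (hb : ¬ Injective b) :
    F b = 0 := by
  obtain ⟨i, j, e, hij⟩ := not_injective_iff.1 hb
  have h1 := h (swap i j) b
  have h2 : b ∘ swap i j = b := funext fun x => apply_swap_eq_self e x
  rw [h2, Perm.sign_swap hij] at h1
  simp only [Units.val_neg, Units.val_one] at h1
  omega

theorem Anti.op {F : (Fin m → ℕ) → ℤ} (h : Anti F) (P : ℕ → Prop) [DecidablePred P] (φ : ℕ → ℕ) :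
    Anti fun b => ∑ i, if P (b i) then F (update b i (φ (b i))) else 0 := fun σ b => by
  rw [mul_sum, ← Equiv.sum_comp σ]
  refine sum_congr rfl fun i _ => ?_
  rw [mul_ite, mul_zero, ← h σ, update_comp_eq_of_injective _ σ.injective]
  rfl

theorem anti_cf (μ : Multiset ℕ) : Anti (m := m) (cf μ) := by
  induction μ using Multiset.induction_on with
  | empty =>
    intro τ b
    rw [cf_zero, cf_zero, mul_sum, ← Equiv.sum_comp (Equiv.mulRight τ)]
    refine sum_congr rfl fun σ _ => ?_
    rw [mul_ite, mul_zero]
    refine if_congr ⟨fun e => funext fun i => ?_, fun e => funext fun i => ?_⟩ ?_ rfl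
    · simpa using congrFun e (τ.symm i)
    · simpa using congrFun e (τ i)
    · simp [mul_comm]
  | cons k μ ih =>
    have := ih.op (k ≤ ·) (· - k)
    intro τ b
    rw [cf_cons, cf_cons]
    exact this τ b

theorem inj_of_cf {μ : Multiset ℕ} {b : Fin m → ℕ} (h : cf μ b ≠ 0) : Injective b := by
  by_contra h1
  exact h ((anti_cf μ).eq_zero h1)

/-- `0 + 1 + ⋯ + (m-1)`. -/
def tri (m : ℕ) : ℕ := ∑ i : Fin m, (i : ℕ)

theorem sum_update_add (b : Fin m → ℕ) (i : Fin m) (x : ℕ) :
    ∑ j, update b i x j + b i = ∑ j, b j + x := by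
  rw [sum_update_of_mem (mem_univ i), ← add_sum_erase _ b (mem_univ i), sdiff_singleton_eq_erase]
  omega

theorem sum_of_cf {μ : Multiset ℕ} {b : Fin m → ℕ} (h : cf μ b ≠ 0) : ∑ i, b i = μ.sum + tri m := by
  induction μ using Multiset.induction_on generalizing b with
  | empty =>
    rw [cf_zero] at h
    obtain ⟨σ, -, h1⟩ := exists_ne_zero_of_sum_ne_zero h
    obtain rfl : (fun i => (σ i : ℕ)) = b := by by_contra h2; exact h1 (if_neg h2)
    rw [Multiset.sum_zero, zero_add, tri]
    exact Equiv.sum_comp σ fun i => (i : ℕ)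
  | cons k μ ih =>
    rw [cf_cons] at h
    obtain ⟨i, -, h1⟩ := exists_ne_zero_of_sum_ne_zero h
    split_ifs at h1 with h2
    · have h3 := ih h1
      have h4 := sum_update_add b i (b i - k)
      rw [Multiset.sum_cons]
      omega
    · exact absurd rfl h1

theorem tri_le {c : Fin m → ℕ} (hc : Injective c) : tri m ≤ ∑ i, c i := by
  have h := sum_range_le_sum (s := univ.image fun i => (c i : ℤ)) (c := 0) (by simp)
  have hi : Injective fun i => (c i : ℤ) := fun i j e => hc (Int.natCast_inj.1 e)
  rw [card_image_of_injective _ hi, sum_image fun i _ j _ e => hi e, card_univ,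
    Fintype.card_fin] at h
  rw [tri, Fin.sum_univ_eq_sum_range (fun i => i)]
  simp only [zero_add] at h
  rw [← Int.ofNat_le]
  push_cast
  exact h

theorem card_lt_le {b : Fin m → ℕ} (hb : Injective b) (v : ℕ) : #{i | b i < v} ≤ v := by
  have := card_le_card_of_injOn (s := ({i | b i < v} : Finset (Fin m))) (t := range v) b
    (fun i hi => by simpa using hi) hb.injOn
  rwa [card_range] at this

/-- The first positions of the abacus are occupied. -/
theorem occ {b : Fin m → ℕ} (hb : Injective b) {n v : ℕ} (hs : ∑ i, b i = n + tri m)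
    (hv : v + n < m) : ∃ j, b j = v := by
  by_contra h
  push Not at h
  have h1 := tri_le (c := fun i => if b i < v then b i else b i - 1) fun i j e => hb (by
    have := h i; have := h j
    simp only at e
    split_ifs at e <;> omega)
  have h2 : ∑ i, b i = ∑ i, (if b i < v then b i else b i - 1) + ∑ i, if b i < v then 0 else 1 := by
    rw [← sum_add_distrib]
    refine sum_congr rfl fun i _ => ?_
    have := h i
    split_ifs <;> omega
  have h3 : ∑ i, (if b i < v then 0 else 1) + #{i | b i < v} = m := by
    rw [card_filter, ← sum_add_distrib]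
    refine (sum_congr rfl fun i _ => (by split_ifs <;> rfl : _ = 1)).trans (by simp)
  have h4 := card_lt_le hb v
  omega

theorem card_lt_eq {b : Fin m → ℕ} (hb : Injective b) {k : ℕ} (h : ∀ v < k, ∃ j, b j = v) :
    #{i | b i < k} = k := by
  refine le_antisymm (card_lt_le hb k) ?_
  have := card_le_card_of_surjOn (s := ({i | b i < k} : Finset (Fin m))) (t := range k) b
    fun v hv => by
      obtain ⟨j, rfl⟩ := h v (by simpa using hv)
      exact ⟨j, by simpa using hv, rfl⟩
  rwa [card_range] at this

theorem cf_update_eq_zero {ν : Multiset ℕ} {b : Fin m → ℕ} (hb : Injective b) {j : Fin m} {x : ℕ}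
    (hx : x ≠ b j) (h : b j + ν.sum < m) : cf ν (update b j x) = 0 := by
  by_contra h1
  obtain ⟨i, hi⟩ := occ (inj_of_cf h1) (sum_of_cf h1) h
  by_cases h2 : i = j
  · rw [h2, update_self] at hi; exact hx hi
  · rw [update_of_ne h2] at hi; exact h2 (hb hi)

/-- The adjoint of multiplication with a power sum. -/
theorem cf_up {k : ℕ} (hk : 0 < k) (μ : Multiset ℕ) (hm : μ.sum + k ≤ m) (b : Fin m → ℕ) :
    ∑ i, cf μ (update b i (b i + k)) = k * μ.count k * cf (μ.erase k) b := by
  induction μ using Multiset.induction_on generalizing b with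
  | empty =>
    by_cases hb : Injective b
    · rw [Multiset.count_zero, Nat.cast_zero, mul_zero, zero_mul]
      refine sum_eq_zero fun i _ => ?_
      by_contra h1
      rw [cf_zero] at h1
      obtain ⟨σ, -, h2⟩ := exists_ne_zero_of_sum_ne_zero h1
      have h3 : (fun i => (σ i : ℕ)) = update b i (b i + k) := by
        by_contra h3; exact h2 (if_neg h3)
      have h4 := congrFun h3 i
      rw [update_self] at h4
      rw [← cf_zero] at h1
      exact h1 (cf_update_eq_zero hb (by omega) (by have := (σ i).2; simp; omega))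
    · have := ((anti_cf 0).op (fun _ => True) (· + k)).eq_zero hb
      simp only [if_true] at this
      rw [this, (anti_cf _).eq_zero hb, mul_zero]
  | cons l ν ih =>
    by_cases hb : Injective b
    swap
    · have := ((anti_cf (l ::ₘ ν)).op (fun _ => True) (· + k)).eq_zero hb
      simp only [if_true] at this
      rw [this, (anti_cf _).eq_zero hb, mul_zero]
    rw [Multiset.sum_cons] at hm
    have h1 : ∑ i, cf (l ::ₘ ν) (update b i (b i + k)) =
        k * ν.count k * cf (l ::ₘ ν.erase k) b +
        ∑ j, if b j < l ∧ l ≤ b j + k then cf ν (update b j (b j + k - l)) else 0 := by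
      simp only [cf_cons]
      rw [sum_comm, mul_sum, ← sum_add_distrib]
      refine sum_congr rfl fun j _ => ?_
      rw [mul_ite, mul_zero, ← ih (by omega), ← add_sum_erase _ _ (mem_univ j),
        ← add_sum_erase _ _ (mem_univ j), update_self, update_self, update_idem, update_idem]
      have h2 : ∑ i ∈ univ.erase j, (if l ≤ update b i (b i + k) j then
          cf ν (update (update b i (b i + k)) j (update b i (b i + k) j - l)) else 0) =
          if l ≤ b j then ∑ i ∈ univ.erase j,
            cf ν (update (update b j (b j - l)) i (update b j (b j - l) i + k)) else 0 := by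
        split_ifs with h4
        · refine sum_congr rfl fun i hi => ?_
          have h3 := (mem_erase.1 hi).1
          rw [update_of_ne h3.symm, update_of_ne h3, update_comm h3, if_pos h4]
        · exact sum_eq_zero fun i hi => by rw [update_of_ne (mem_erase.1 hi).1.symm, if_neg h4]
      rw [h2]
      by_cases h3 : l ≤ b j
      · rw [if_pos h3, if_pos h3, if_pos (by omega), if_neg (by omega), add_zero,
          show b j - l + k = b j + k - l by omega]
      · rw [if_neg h3, if_neg h3, add_zero, zero_add]
        exact if_congr (by omega) rfl rfl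
    rw [h1]
    by_cases hkl : l = k
    · subst hkl
      rw [Multiset.count_cons_self, Multiset.erase_cons_head]
      have h2 : (ν.count l : ℤ) * cf (l ::ₘ ν.erase l) b = ν.count l * cf ν b := by
        by_cases h3 : l ∈ ν
        · rw [Multiset.cons_erase h3]
        · rw [Multiset.count_eq_zero.2 h3, Nat.cast_zero, zero_mul, zero_mul]
      have h3 : ∑ j, (if b j < l ∧ l ≤ b j + l then cf ν (update b j (b j + l - l)) else 0) =
          l * cf ν b := by
        by_cases h4 : cf ν b = 0
        · simp [h4]
        simp only [Nat.add_sub_cancel, update_eq_self, le_add_iff_nonneg_left, zero_le, and_true]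
        rw [← sum_filter, sum_const, card_lt_eq hb fun v hv => occ hb (sum_of_cf h4) (by omega),
          nsmul_eq_mul]
      rw [mul_assoc, h2, h3]
      push_cast
      ring
    · rw [Multiset.count_cons_of_ne (Ne.symm hkl), Multiset.erase_cons_tail _ hkl,
        sum_eq_zero, add_zero]
      intro j _
      split_ifs with h2
      · exact cf_update_eq_zero hb (by omega) (by omega)
      · rfl

/-- The order of the centralizer of a permutation of cycle type `μ`. -/
def zz (μ : Multiset ℕ) : ℕ := μ.prod * ∏ k ∈ μ.toFinset, (μ.count k).factorial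

theorem zz_cons (k : ℕ) (μ : Multiset ℕ) : zz (k ::ₘ μ) = k * (μ.count k + 1) * zz μ := by
  have h1 : ∀ ν : Multiset ℕ, ∏ j ∈ ν.toFinset, (ν.count j).factorial =
      (ν.count k).factorial * ∏ j ∈ ν.toFinset.erase k, (ν.count j).factorial := fun ν => by
    by_cases h : k ∈ ν
    · rw [mul_prod_erase _ (fun j => (ν.count j).factorial) (Multiset.mem_toFinset.2 h)]
    · rw [Multiset.count_eq_zero.2 h, erase_eq_of_notMem (by simpa using h), Nat.factorial_zero,
        one_mul]
  rw [zz, zz, h1, h1 μ, Multiset.prod_cons, Multiset.count_cons_self, Multiset.toFinset_cons,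
    erase_insert_eq_erase, Nat.factorial_succ,
    prod_congr rfl fun j hj => by rw [Multiset.count_cons_of_ne (mem_erase.1 hj).1]]
  ring

theorem zz_add_replicate {μ : Multiset ℕ} (h : 1 ∉ μ) (r : ℕ) :
    zz (μ + Multiset.replicate r 1) = r.factorial * zz μ := by
  induction r with
  | zero => simp
  | succ r ih =>
    rw [Multiset.replicate_succ, Multiset.add_cons, zz_cons, ih, Multiset.count_add,
      Multiset.count_eq_zero.2 h, Multiset.count_replicate_self, Nat.factorial_succ]
    ring

theorem cf_zero_val : cf 0 (fun i : Fin m => (i : ℕ)) = 1 := by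
  rw [cf_zero, sum_eq_single 1]
  · simp
  · exact fun σ _ h => if_neg fun e => h (Equiv.ext fun i => Fin.ext (congrFun e i))
  · simp

/-- The vectors with a given sum. -/
def vec (m N : ℕ) : Finset (Fin m → ℕ) := piAntidiag univ N

theorem mem_vec {N : ℕ} {b : Fin m → ℕ} : b ∈ vec m N ↔ ∑ i, b i = N := by simp [vec]

/-- Column orthogonality. -/
theorem orth (μ ν : Multiset ℕ) (h0 : 0 ∉ μ) (h0' : 0 ∉ ν) (hs : ν.sum = μ.sum)
    (hm : 2 * μ.sum ≤ m) : ∑ b ∈ vec m (μ.sum + tri m), cf μ b * cf ν b =
      if μ = ν then (m.factorial * zz μ : ℕ) else 0 := by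
  induction μ using Multiset.induction_on generalizing ν with
  | empty =>
    obtain rfl : ν = 0 := by
      by_contra h
      obtain ⟨x, hx⟩ := Multiset.exists_mem_of_ne_zero h
      exact h0' (Multiset.sum_eq_zero_iff.1 hs x hx ▸ hx)
    rw [if_pos rfl]
    conv_lhs => enter [2, b]; rw [cf_zero b, sum_mul, ← cf_zero b]
    rw [sum_comm]
    simp only [ite_mul, zero_mul]
    rw [sum_congr rfl fun σ _ => (sum_ite_eq _ _ _).trans (if_pos (mem_vec.2 ?_)),
      sum_congr rfl (g := fun _ => 1) fun σ _ => ?_]
    · simp [zz, Fintype.card_perm]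
    · rw [show (fun i => (σ i : ℕ)) = (fun i : Fin m => (i : ℕ)) ∘ σ from rfl, anti_cf,
        cf_zero_val, mul_one, ← Units.val_mul, Int.units_mul_self, Units.val_one]
    · rw [Multiset.sum_zero, zero_add]
      exact Equiv.sum_comp σ fun i => (i : ℕ)
  | cons k μ ih =>
    have hk : 0 < k := Nat.pos_of_ne_zero fun e => h0 (e ▸ Multiset.mem_cons_self _ _)
    rw [Multiset.sum_cons] at hs hm ⊢
    have h1 : ∀ i, ∑ b ∈ vec m (k + μ.sum + tri m),
        (if k ≤ b i then cf μ (update b i (b i - k)) else 0) * cf ν b =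
        ∑ b ∈ vec m (μ.sum + tri m), cf μ b * cf ν (update b i (b i + k)) := fun i => by
      simp only [ite_mul, zero_mul]
      rw [← sum_filter]
      refine sum_nbij' (fun b => update b i (b i - k)) (fun b => update b i (b i + k)) ?_ ?_ ?_ ?_ ?_
      · intro b hb
        have h2 := sum_update_add b i (b i - k)
        rw [mem_filter, mem_vec] at hb
        rw [mem_vec]
        omega
      · intro b hb
        have h2 := sum_update_add b i (b i + k)
        rw [mem_vec] at hb
        rw [mem_filter, mem_vec, update_self]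
        omega
      · intro b hb
        simp only [update_self, update_idem, Nat.sub_add_cancel (mem_filter.1 hb).2, update_eq_self]
      · intro b _
        simp only [update_self, update_idem, Nat.add_sub_cancel, update_eq_self]
      · intro b hb
        simp only [update_self, update_idem, Nat.sub_add_cancel (mem_filter.1 hb).2, update_eq_self]
    simp only [cf_cons, sum_mul]
    rw [sum_comm, sum_congr rfl fun i _ => h1 i, sum_comm]
    simp only [← mul_sum]
    rw [sum_congr rfl fun b _ => by rw [cf_up hk ν (by omega), mul_left_comm], ← mul_sum]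
    by_cases h2 : k ∈ ν
    · have h3 := Multiset.sum_erase h2
      rw [ih _ (fun e => h0 (Multiset.mem_cons_of_mem e)) (fun e => h0' (Multiset.mem_of_mem_erase e))
        (by omega) (by omega)]
      by_cases h4 : μ = ν.erase k
      · have h5 : k ::ₘ μ = ν := by rw [h4, Multiset.cons_erase h2]
        rw [if_pos h4, if_pos h5, zz_cons, ← h5, Multiset.count_cons_self]
        push_cast
        ring
      · rw [if_neg h4, if_neg fun e => h4 (by rw [← e, Multiset.erase_cons_head]), Nat.cast_zero,
          mul_zero]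
    · rw [Multiset.count_eq_zero.2 h2, if_neg fun e => h2 (by rw [← e]; exact Multiset.mem_cons_self _ _)]
      simp

theorem cf_one_aux (n : ℕ) (b : Fin m → ℕ) (hs : ∑ i, b i = n + tri m) :
    (∏ i, ((b i).factorial : ℤ)) * cf (Multiset.replicate n 1) b = n.factorial *
      ∑ σ : Perm (Fin m), (Perm.sign σ : ℤ) * ∏ i, ((b i).descFactorial (σ i) : ℤ) := by
  induction n generalizing b with
  | zero =>
    rw [Multiset.replicate_zero, cf_zero, mul_sum, Nat.factorial_zero, Nat.cast_one, one_mul]
    refine sum_congr rfl fun σ _ => ?_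
    split_ifs with h
    · subst h
      simp only [Nat.descFactorial_self, mul_comm]
    · obtain ⟨i, hi⟩ : ∃ i, b i < σ i := by
        by_contra h1
        push Not at h1
        refine h (funext fun i => (sum_eq_sum_iff_of_le fun i _ => h1 i).1 ?_ i (mem_univ i))
        rw [hs, zero_add]
        exact Equiv.sum_comp σ fun i => (i : ℕ)
      rw [mul_zero, prod_eq_zero (mem_univ i) (by rw [Nat.descFactorial_of_lt hi, Nat.cast_zero]),
        mul_zero]
  | succ n ih =>
    have h1 : ∀ i, (∏ j, ((b j).factorial : ℤ)) *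
        (if 1 ≤ b i then cf (Multiset.replicate n 1) (update b i (b i - 1)) else 0) =
        n.factorial * ∑ σ : Perm (Fin m), ((b i : ℤ) - (σ i : ℕ)) *
          ((Perm.sign σ : ℤ) * ∏ j, ((b j).descFactorial (σ j) : ℤ)) := fun i => by
      split_ifs with h
      · obtain ⟨c, hc⟩ : ∃ c, b i = c + 1 := ⟨b i - 1, by omega⟩
        have h2 := ih (update b i c) (by have := sum_update_add b i c; omega)
        have h3 : ∀ f : Fin m → ℕ → ℤ, ∏ j, f j (update b i c j) =
            f i c * ∏ j ∈ univ.erase i, f j (b j) := fun f => by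
          rw [← mul_prod_erase _ _ (mem_univ i), update_self]
          exact congrArg _ (prod_congr rfl fun j hj => by rw [update_of_ne (mem_erase.1 hj).1])
        rw [h3 fun _ x => (x.factorial : ℤ)] at h2
        rw [← mul_prod_erase _ _ (mem_univ i), hc, Nat.add_sub_cancel, Nat.factorial_succ,
          Nat.cast_mul, mul_assoc, mul_assoc, ← mul_assoc (c.factorial : ℤ), h2, mul_left_comm,
          mul_sum]
        refine congrArg _ (sum_congr rfl fun σ _ => ?_)
        rw [h3 fun j x => (x.descFactorial (σ j) : ℤ), ← mul_prod_erase _ _ (mem_univ i), hc]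
        have h4 : ((c + 1 : ℕ) : ℤ) * (c.descFactorial (σ i) : ℤ) =
            (((c + 1 : ℕ) : ℤ) - (σ i : ℕ)) * ((c + 1).descFactorial (σ i) : ℤ) := by
          rw [← Nat.cast_mul, ← Nat.succ_descFactorial_succ, Nat.descFactorial_succ]
          rcases le_or_gt (σ i : ℕ) (c + 1) with h5 | h5
          · rw [Nat.cast_mul, Nat.cast_sub h5]
          · rw [Nat.descFactorial_of_lt h5]; simp
        linear_combination (Perm.sign σ : ℤ) *
          (∏ j ∈ univ.erase i, ((b j).descFactorial (σ j) : ℤ)) * h4
      · rw [mul_zero, sum_eq_zero, mul_zero]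
        intro σ _
        rcases Nat.eq_zero_or_pos (σ i) with h5 | h5
        · rw [h5, show b i = 0 by omega, sub_self, zero_mul]
        · rw [prod_eq_zero (mem_univ i)
            (by rw [Nat.descFactorial_of_lt (by omega), Nat.cast_zero]), mul_zero, mul_zero]
    rw [Multiset.replicate_succ, cf_cons, mul_sum, sum_congr rfl fun i _ => h1 i, ← mul_sum,
      sum_comm, Nat.factorial_succ, Nat.cast_mul, mul_assoc, mul_left_comm]
    congr 1
    rw [mul_sum]
    refine sum_congr rfl fun σ _ => ?_
    rw [← sum_mul, sum_sub_distrib, ← Nat.cast_sum, ← Nat.cast_sum, hs,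
      show ∑ i, (σ i : ℕ) = tri m from Equiv.sum_comp σ fun i => (i : ℕ)]
    push_cast
    ring

/-- The degree formula. -/
theorem cf_one (n : ℕ) (b : Fin m → ℕ) (hs : ∑ i, b i = n + tri m) :
    (∏ i, ((b i).factorial : ℤ)) * cf (Multiset.replicate n 1) b = n.factorial *
      ∏ i, ∏ j ∈ Ioi i, ((b j : ℤ) - b i) := by
  rw [cf_one_aux n b hs, ← Matrix.det_vandermonde,
    Matrix.det_eval_matrixOfPolynomials_eq_det_vandermonde _ (fun i => descPochhammer ℤ i)
      (fun i => descPochhammer_natDegree ℤ i) (fun i => monic_descPochhammer ℤ i),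
    ← Matrix.det_transpose, Matrix.det_apply']
  simp only [Matrix.transpose_apply, Matrix.of_apply, descPochhammer_eval_eq_descFactorial,
    Int.cast_id]

end Cfsg.Agent.Sym
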