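import Cfsg.Agent.Lib.Sym.Sym1
import Cfsg.Agent.Lib.Block.Omega

/-! Frobenius' character formula: the irreducible characters of the symmetric groups. -/

set_option autoImplicit false

namespace Cfsg.Agent.Sym

open Finset Equiv Function MvPolynomial Cfsg.Agent.Char Cfsg.Agent.Block
open scoped ComplexConjugate

variable {m : ℕ} {Ω : Type*} [Fintype Ω] [DecidableEq Ω]

theorem isGen_sum_fixed {G X : Type*} [Group G] [MulAction G X] [Fintype X] [DecidableEq X]
    (w : X → ℤ) (hw : ∀ (g : G) x, w (g • x) = w x) :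
    IsGeneralizedCharacter G fun g => ((∑ x with g • x = x, w x : ℤ) : ℂ) := by
  let Y : ℤ → SubMulAction G X := fun v => ⟨{x | w x = v}, fun g x hx => (hw g x).trans hx⟩
  have h := isGen_sum (univ.image w) fun v _ =>
    isGen_intCast_smul v (isGen_of_isChar (isChar_fixedBy (G := G) (Y v)))
  convert h using 1
  funext g
  rw [Finset.sum_apply, ← sum_fiberwise_of_maps_to (g := w) (t := univ.image w)
    fun x _ => mem_image_of_mem w (mem_univ x), Int.cast_sum]
  refine sum_congr rfl fun v _ => ?_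
  rw [sum_congr rfl fun x hx => (mem_filter.1 hx).2, sum_const, Pi.smul_apply, smul_eq_mul,
    nsmul_eq_mul, Int.cast_mul, Int.cast_natCast, mul_comm, ← Nat.card_eq_finsetCard]
  congr 2
  exact Nat.card_congr ⟨fun x => ⟨⟨x.1, (mem_filter.1 x.2).2⟩,
      Subtype.ext (mem_filter.1 (mem_filter.1 x.2).1).2⟩,
    fun y => ⟨y.1.1, mem_filter.2 ⟨mem_filter.2 ⟨mem_univ _, congrArg Subtype.val y.2⟩, y.1.2⟩⟩,
    fun _ => rfl, fun _ => rfl⟩

theorem sum_fixed_eq {T : Type*} [Fintype T] [DecidableEq T] (g : Perm Ω) (π : Ω → T)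
    (hs : Surjective π) (h1 : ∀ x, π (g x) = π x) (h2 : ∀ x y, π x = π y → g.SameCycle x y) :
    ∑ f : Ω → Fin m with f ∘ g = f, ∏ ω, (X (f ω) : MvPolynomial (Fin m) ℤ) =
      ∏ t, psum (Fin m) ℤ #{ω | π ω = t} := by
  simp only [psum]
  rw [prod_univ_sum, Fintype.piFinset_univ]
  refine (sum_bij (fun f _ => f ∘ π) (fun f _ => ?_) (fun f _ f' _ e => ?_) (fun f hf => ?_)
    fun f _ => ?_).symm
  · exact mem_filter.2 ⟨mem_univ _, funext fun x => congrArg f (h1 x)⟩
  · exact hs.injective_comp_right e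
  · refine ⟨f ∘ surjInv hs, mem_univ _, funext fun x => ?_⟩
    obtain ⟨i, -, e⟩ := (h2 _ _ (surjInv_eq hs (π x))).exists_pow_eq'
    have h3 : ∀ (i : ℕ) y, f ((g ^ i) y) = f y := fun i y => by
      induction i with
      | zero => rfl
      | succ i ih => rw [pow_succ', Perm.mul_apply, ← ih]; exact congrFun (mem_filter.1 hf).2 _
    exact (h3 i _).symm.trans (congrArg f e)
  · simp only [← prod_const]
    exact prod_fiberwise' univ π fun t => X (f t)

theorem pp_parts (g : Perm Ω) : pp m g.partition.parts =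
    ∑ f : Ω → Fin m with f ∘ g = f, ∏ ω, (X (f ω) : MvPolynomial (Fin m) ℤ) := by
  let π : Ω → g.cycleFactorsFinset ⊕ {x // x ∉ g.support} := fun x =>
    if h : x ∈ g.support then .inl ⟨g.cycleOf x, Perm.cycleOf_mem_cycleFactorsFinset_iff.2 h⟩
    else .inr ⟨x, h⟩
  have hl : ∀ x c, π x = .inl c ↔ x ∈ c.1.support := fun x c => by
    simp only [π]
    split_ifs with h
    · rw [Sum.inl.injEq, Subtype.ext_iff]
      exact ⟨fun e => e ▸ Perm.mem_support_cycleOf_iff.2 ⟨.rfl, h⟩,
        fun e => (Perm.cycle_is_cycleOf e c.2).symm⟩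
    · exact ⟨fun e => by simp at e, fun e => absurd (Perm.mem_cycleFactorsFinset_support_le c.2 e) h⟩
  have hr : ∀ x y, π x = .inr y ↔ x = y.1 := fun x y => by
    simp only [π]
    split_ifs with h
    · exact ⟨fun e => by simp at e, fun e => absurd (e ▸ h) y.2⟩
    · rw [Sum.inr.injEq, Subtype.ext_iff]
  rw [sum_fixed_eq g π, Fintype.prod_sum_type]
  · simp only [hl, hr, filter_univ_mem, filter_eq', mem_univ, if_true, card_singleton]
    rw [prod_const, card_univ, Fintype.card_subtype_compl, Fintype.card_coe,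
      prod_coe_sort g.cycleFactorsFinset fun c => psum (Fin m) ℤ #c.support, pp,
      Perm.parts_partition, Multiset.map_add, Multiset.prod_add, Multiset.map_replicate,
      Multiset.prod_replicate, Perm.cycleType_def, Multiset.map_map]
    rfl
  · rintro (c | y)
    · obtain ⟨x, hx⟩ := (Perm.mem_cycleFactorsFinset_iff.1 c.2).1.nonempty_support
      exact ⟨x, (hl x c).2 hx⟩
    · exact ⟨y, (hr _ y).2 rfl⟩
  · intro x
    rcases h : π x with c | y
    · rw [hl] at h ⊢
      rw [← (Perm.mem_cycleFactorsFinset_iff.1 c.2).2 x h]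
      exact Perm.apply_mem_support.2 h
    · rw [hr] at h ⊢
      rw [h]
      exact Perm.notMem_support.1 y.2
  · intro x y e
    rcases h : π x with c | z
    · have h1 := (hl _ _).1 (e ▸ h)
      rw [Perm.cycle_is_cycleOf ((hl _ _).1 h) c.2] at h1
      exact (Perm.mem_support_cycleOf_iff.1 h1).1
    · rw [(hr x z).1 h, (hr y z).1 (e ▸ h)]

/-- The class function attached to a vector. -/
noncomputable def ch (Ω : Type*) [Fintype Ω] [DecidableEq Ω] (b : Fin m → ℕ) (g : Perm Ω) : ℂ :=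
  cf g.partition.parts b

theorem isGen_ch (b : Fin m → ℕ) : IsGeneralizedCharacter (Perm Ω) (ch Ω b) := by
  let : MulAction (Perm Ω) (Ω → Fin m) := arrowAction
  have h := isGen_sum_fixed (G := Perm Ω) (X := Ω → Fin m)
    (fun f => coeff (fs b) ((∏ ω, X (f ω)) * vd m)) fun g f =>
      congrArg (fun P => coeff (fs b) (P * vd m))
        (Equiv.prod_comp g⁻¹ fun ω => (X (f ω) : MvPolynomial (Fin m) ℤ))
  convert h using 1
  funext g
  rw [ch, cf, pp_parts, sum_mul, coeff_sum]
  refine congrArg _ (sum_congr (filter_congr fun f _ => ⟨fun e => funext fun x => ?_,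
    fun e => funext fun x => ?_⟩) fun _ _ => rfl)
  · exact (congrFun e (g⁻¹ x)).symm.trans (congrArg f (g.apply_symm_apply x))
  · exact (congrFun e (g x)).symm.trans (congrArg f (g.symm_apply_apply x))

theorem zz_parts (g : Perm Ω) :
    zz g.partition.parts = Nat.card (Subgroup.centralizer ({g} : Set (Perm Ω))) := by
  rw [Perm.parts_partition, zz_add_replicate fun h => (Perm.one_lt_of_mem_cycleType h).false,
    Perm.nat_card_centralizer, zz, Perm.sum_cycleType, mul_assoc]

theorem sum_ch_mul (hm : 2 * Fintype.card Ω ≤ m) (g h : Perm Ω) :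
    ∑ b ∈ vec m (Fintype.card Ω + tri m), ch Ω b g * conj (ch Ω b h) =
      m.factorial * ∑ χ : IrrCharacter (Perm Ω), χ.1 g * conj (χ.1 h) := by
  have h1 := orth (m := m) g.partition.parts h.partition.parts
    (fun e => (g.partition.parts_pos e).false) (fun e => (h.partition.parts_pos e).false)
    (by rw [g.partition.parts_sum, h.partition.parts_sum]) (by rwa [g.partition.parts_sum])
  rw [g.partition.parts_sum] at h1
  simp only [ch, map_intCast, ← Int.cast_mul]
  rw [← Int.cast_sum, h1]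
  split_ifs with h2
  · rw [sum_irr_mul_conj_of_isConj (Perm.partition_eq_of_isConj.2 (Nat.Partition.ext h2)), zz_parts]
    push_cast
    rfl
  · rw [sum_irr_mul_conj_of_not_isConj fun e => h2 (by rw [Perm.partition_eq_of_isConj.1 e])]
    simp

theorem inner_mul_conj_inner {G : Type*} [Group G] [Fintype G] (φ ψ ψ' : G → ℂ) :
    classInner φ ψ * conj (classInner φ ψ') = ∑ g, ∑ h, (φ g * conj (φ h)) *
      ((Nat.card G : ℂ)⁻¹ * (Nat.card G : ℂ)⁻¹ * (conj (ψ g) * ψ' h)) := by
  rw [conj_inner, classInner, classInner, mul_mul_mul_comm, sum_mul_sum, mul_sum]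
  refine sum_congr rfl fun g _ => ?_
  rw [mul_sum]
  exact sum_congr rfl fun h _ => by ring

theorem sum_inner_mul_conj {G ι : Type*} [Group G] [Fintype G] (s : Finset ι) (φ : ι → G → ℂ)
    (ψ ψ' : G → ℂ) : ∑ b ∈ s, classInner (φ b) ψ * conj (classInner (φ b) ψ') = ∑ g, ∑ h,
      (∑ b ∈ s, φ b g * conj (φ b h)) *
        ((Nat.card G : ℂ)⁻¹ * (Nat.card G : ℂ)⁻¹ * (conj (ψ g) * ψ' h)) := by
  simp only [inner_mul_conj_inner, sum_mul]
  rw [sum_comm]
  exact sum_congr rfl fun g _ => sum_comm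

/-- The multiplicity of an irreducible character. -/
noncomputable def mu (ψ : IrrCharacter (Perm Ω)) (b : Fin m → ℕ) : ℤ :=
  (exists_int_inner (isGen_ch b) (isGen_of_isIrr ψ.2)).choose

theorem mu_spec (ψ : IrrCharacter (Perm Ω)) (b : Fin m → ℕ) :
    classInner (ch Ω b) ψ.1 = mu ψ b :=
  (exists_int_inner (isGen_ch b) (isGen_of_isIrr ψ.2)).choose_spec

theorem anti_mu (ψ : IrrCharacter (Perm Ω)) : Anti (m := m) (mu ψ) := fun σ b => by
  have : ch Ω (b ∘ σ) = ((Perm.sign σ : ℤ) : ℂ) • ch Ω b := funext fun g => by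
    rw [ch, anti_cf, Int.cast_mul]; rfl
  rw [← Int.cast_inj (α := ℂ), Int.cast_mul, ← mu_spec, ← mu_spec, this, Char.inner_smul_left]

theorem sum_mu (hm : 2 * Fintype.card Ω ≤ m) [DecidableEq (IrrCharacter (Perm Ω))]
    (ψ ψ' : IrrCharacter (Perm Ω)) : ∑ b ∈ vec m (Fintype.card Ω + tri m), mu ψ b * mu ψ' b =
      if ψ = ψ' then (m.factorial : ℤ) else 0 := by
  have h1 := sum_inner_mul_conj (vec m (Fintype.card Ω + tri m)) (ch Ω) ψ.1 ψ'.1
  have h2 := sum_inner_mul_conj univ (fun χ : IrrCharacter (Perm Ω) => χ.1) ψ.1 ψ'.1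
  simp only [sum_ch_mul hm, mul_assoc (m.factorial : ℂ), ← mul_sum] at h1
  rw [← h2] at h1
  simp only [mu_spec, map_intCast, inner_irr, ite_mul, one_mul, zero_mul, sum_ite_eq', mem_univ,
    if_true] at h1
  rw [← Int.cast_inj (α := ℂ)]
  push_cast
  rw [h1]
  split_ifs <;> simp

theorem sum_orbit {F F' : (Fin m → ℕ) → ℤ} (h : Anti F) (h' : Anti F') {N : ℕ} {b : Fin m → ℕ}
    (hb : Injective b) (hs : b ∈ vec m N) : ∑ c ∈ vec m N, F c * F' c = m.factorial * (F b * F' b) +
      ∑ c ∈ vec m N \ univ.image fun σ : Perm (Fin m) => b ∘ σ, F c * F' c := by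
  rw [← sum_sdiff (s₁ := univ.image fun σ : Perm (Fin m) => b ∘ σ), add_comm, sum_image,
    sum_congr rfl (g := fun _ => F b * F' b), sum_const, card_univ, Fintype.card_perm,
    Fintype.card_fin, nsmul_eq_mul]
  · intro σ _
    rw [h, h', mul_mul_mul_comm, ← Units.val_mul, Int.units_mul_self, Units.val_one, one_mul]
  · exact fun σ _ τ _ e => Equiv.ext fun i => hb (congrFun e i)
  · intro c hc
    obtain ⟨σ, -, rfl⟩ := mem_image.1 hc
    rw [mem_vec] at hs ⊢
    exact (Equiv.sum_comp σ b).trans hs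

/-- The vector `b` is a label of the irreducible character `χ`. -/
def Lab (χ : IrrCharacter (Perm Ω)) (b : Fin m → ℕ) : Prop :=
  ∃ ε : ℤ, ε * ε = 1 ∧ ∀ g : Perm Ω, (cf g.partition.parts b : ℂ) = ε * χ.1 g

theorem lab_of_mu (hm : 2 * Fintype.card Ω ≤ m) {ψ : IrrCharacter (Perm Ω)} {b : Fin m → ℕ}
    (hs : b ∈ vec m (Fintype.card Ω + tri m)) (h : mu ψ b ≠ 0) : Lab ψ b := by
  classical
  have hb : Injective b := by
    by_contra h1
    exact h ((anti_mu ψ).eq_zero h1)
  have h1 := sum_orbit (anti_mu ψ) (anti_mu ψ) hb hs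
  rw [sum_mu hm, if_pos rfl] at h1
  have h2 := sum_nonneg (s := vec m (Fintype.card Ω + tri m) \
    univ.image fun σ : Perm (Fin m) => b ∘ σ) fun c _ => mul_self_nonneg (mu ψ c)
  have h3 : (0 : ℤ) < m.factorial := by exact_mod_cast m.factorial_pos
  have h4 := mul_self_pos.2 h
  have h5 : mu ψ b * mu ψ b = 1 := by nlinarith
  rw [h5, mul_one, left_eq_add, sum_eq_zero_iff_of_nonneg fun c _ => mul_self_nonneg _] at h1
  refine ⟨_, h5, fun g => ?_⟩
  have h6 := congrFun (eq_sum_inner_smul (isClass_of_isGen (isGen_ch (Ω := Ω) b))) g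
  rw [Finset.sum_apply, sum_eq_single ψ, mu_spec] at h6
  · exact h6
  · intro ψ' _ h7
    have h8 := sum_orbit (anti_mu ψ) (anti_mu ψ') hb hs
    rw [sum_mu hm, if_neg h7.symm, sum_eq_zero fun c hc => by
      rw [mul_self_eq_zero.1 (h1 c hc), zero_mul], add_zero, eq_comm, mul_eq_zero,
      mul_eq_zero] at h8
    rw [mu_spec, (h8.resolve_left h3.ne').resolve_left h, Int.cast_zero, zero_smul, Pi.zero_apply]
  · simp

theorem exists_lab (hm : 2 * Fintype.card Ω ≤ m) (ψ : IrrCharacter (Perm Ω)) :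
    ∃ b : Fin m → ℕ, Lab ψ b := by
  classical
  have h := sum_mu hm ψ ψ
  rw [if_pos rfl] at h
  obtain ⟨b, hb, h1⟩ := exists_ne_zero_of_sum_ne_zero
    (h.trans_ne (Int.natCast_ne_zero.2 m.factorial_ne_zero))
  exact ⟨b, lab_of_mu hm hb (left_ne_zero_of_mul h1)⟩

theorem parts_one : (1 : Perm Ω).partition.parts = Multiset.replicate (Fintype.card Ω) 1 := by
  simp [Perm.parts_partition]

theorem cf_one_ne {n : ℕ} {b : Fin m → ℕ} (hb : Injective b) (hs : ∑ i, b i = n + tri m) :
    cf (Multiset.replicate n 1) b ≠ 0 := fun e => by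
  have h := cf_one n b hs
  rw [e, mul_zero, eq_comm, mul_eq_zero] at h
  refine h.elim (Int.natCast_ne_zero.2 n.factorial_ne_zero) (prod_ne_zero_iff.2 fun i _ =>
    prod_ne_zero_iff.2 fun j hj e => (mem_Ioi.1 hj).ne' (hb (by omega)))

theorem exists_irr (hm : 2 * Fintype.card Ω ≤ m) {b : Fin m → ℕ} (hb : Injective b)
    (hs : ∑ i, b i = Fintype.card Ω + tri m) : ∃ ψ : IrrCharacter (Perm Ω), Lab ψ b := by
  obtain ⟨ψ, h⟩ := exists_inner_irr_ne_zero (isClass_of_isGen (isGen_ch (Ω := Ω) b)) fun e =>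
    cf_one_ne hb hs (by simpa only [ch, parts_one, Pi.zero_apply, Int.cast_eq_zero] using congrFun e 1)
  exact ⟨ψ, lab_of_mu hm (mem_vec.2 hs) fun e => h (by rw [mu_spec, e, Int.cast_zero])⟩

namespace Lab

variable {χ : IrrCharacter (Perm Ω)} {b : Fin m → ℕ}

theorem eq_zero_iff (h : Lab χ b) (g : Perm Ω) : χ.1 g = 0 ↔ cf g.partition.parts b = 0 := by
  obtain ⟨ε, h1, h2⟩ := h
  rw [← Int.cast_eq_zero (α := ℂ), h2, mul_eq_zero, Int.cast_eq_zero, or_iff_right]
  rintro rfl
  simp at h1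

theorem ne (h : Lab χ b) : cf (Multiset.replicate (Fintype.card Ω) 1) b ≠ 0 := fun e =>
  irr_apply_one_ne_zero χ ((h.eq_zero_iff 1).2 (parts_one (Ω := Ω) ▸ e))

theorem inj (h : Lab χ b) : Injective b := inj_of_cf h.ne

theorem sum (h : Lab χ b) : ∑ i, b i = Fintype.card Ω + tri m := by simpa using sum_of_cf h.ne

theorem deg (h : Lab χ b) :
    charDegree χ.1 = (cf (Multiset.replicate (Fintype.card Ω) 1) b).natAbs := by
  obtain ⟨ε, h1, h2⟩ := h
  have h3 := h2 1
  rw [parts_one, ← cast_charDegree, ← Int.cast_natCast, ← Int.cast_mul, Int.cast_inj] at h3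
  rw [h3, Int.natAbs_mul, Int.natAbs_natCast, Int.isUnit_iff_natAbs_eq.1 (.of_mul_eq_one _ h1),
    one_mul]

end Lab

/-- The product of the hook lengths. -/
def hk (b : Fin m → ℕ) : ℕ := ∏ i, ∏ g ∈ range (b i) \ univ.image b, (b i - g)

theorem hk_ne (b : Fin m → ℕ) : hk b ≠ 0 := prod_ne_zero_iff.2 fun _ _ =>
  prod_ne_zero_iff.2 fun _ hg => (Nat.sub_pos_of_lt (mem_range.1 (mem_sdiff.1 hg).1)).ne'

theorem prod_rel_sq {ι : Type*} [Fintype ι] [DecidableEq ι] (D : ι → ι → ℕ)
    (hD : ∀ i j, D i j = D j i) (r : ι → ι → Prop) [DecidableRel r]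
    (h1 : ∀ i j, r i j → ¬ r j i) (h2 : ∀ i j, i ≠ j → r i j ∨ r j i) :
    (∏ i, ∏ j with r i j, D i j) ^ 2 = ∏ i, ∏ j with j ≠ i, D i j := by
  have h3 : ∏ i, ∏ j with r i j, D i j = ∏ i, ∏ j with r j i, D i j := by
    simp only [prod_filter]
    rw [prod_comm]
    simp only [hD]
  rw [sq]
  nth_rewrite 2 [h3]
  rw [← prod_mul_distrib]
  refine prod_congr rfl fun i _ => ?_
  rw [← prod_union (disjoint_filter.2 fun j _ => h1 i j), ← filter_or]
  exact prod_congr (filter_congr fun j _ => ⟨fun h e => by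
    subst e; exact h.elim (fun h => h1 _ _ h h) (fun h => h1 _ _ h h), fun h => h2 i j h.symm⟩) fun _ _ => rfl

/-- The hook length formula. -/
theorem Lab.deg_mul {χ : IrrCharacter (Perm Ω)} {b : Fin m → ℕ} (h : Lab χ b) :
    charDegree χ.1 * hk b = (Fintype.card Ω).factorial := by
  have h1 := congrArg Int.natAbs (cf_one _ b h.sum)
  let D : Fin m → Fin m → ℕ := fun i j => ((b j : ℤ) - b i).natAbs
  have hD : ∀ i j, D i j = D j i := fun i j => by simp only [D]; omega
  have h2 := prod_rel_sq D hD (· < ·) (fun _ _ => lt_asymm) fun _ _ => lt_or_gt_of_ne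
  rw [← prod_rel_sq D hD (fun i j => b j < b i) (fun _ _ => lt_asymm)
    fun _ _ e => (lt_or_gt_of_ne (h.inj.ne e)).symm, Nat.pow_left_inj two_ne_zero] at h2
  have h3 : ∏ i, (b i).factorial = hk b * ∏ i, ∏ j with b j < b i, D i j := by
    rw [hk, ← prod_mul_distrib]
    refine prod_congr rfl fun i _ => ?_
    rw [← Nat.descFactorial_self, Nat.descFactorial_eq_prod_range,
      ← prod_sdiff (s₁ := range (b i) ∩ univ.image b) inter_subset_left, sdiff_inter_self_left]
    congr 1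
    refine (prod_bij (fun j _ => b j) (fun j hj => ?_) (fun j _ k _ e => h.inj e) (fun g hg => ?_)
      fun j hj => ?_).symm
    · simpa using hj
    · obtain ⟨j, -, rfl⟩ := mem_image.1 (mem_inter.1 hg).2
      exact ⟨j, by simpa using hg, rfl⟩
    · have := (mem_filter.1 hj).2
      simp only [D]
      omega
  simp only [Int.natAbs_mul, ← h.deg, ← Nat.cast_prod, Int.natAbs_natCast, h3] at h1
  have h4 : (∏ i, ∏ j ∈ Ioi i, ((b j : ℤ) - b i)).natAbs = ∏ i, ∏ j with b j < b i, D i j := by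
    rw [← h2, ← Int.natAbsHom_apply, map_prod]
    refine prod_congr rfl fun i _ => ?_
    rw [map_prod]
    exact prod_congr (by ext; simp) fun _ _ => rfl
  rw [h4] at h1
  refine Nat.eq_of_mul_eq_mul_right (Nat.pos_of_ne_zero (prod_ne_zero_iff.2 fun i _ =>
    prod_ne_zero_iff.2 fun j hj => ?_)) (by rw [← h1]; ring)
  have := (mem_filter.1 hj).2
  simp only [D]
  omega

end Cfsg.Agent.Sym
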