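import Cfsg.Agent.Lib.Sym.Sym2

/-! The abacus: cores, weights and valuations of hook products. -/

set_option autoImplicit false

namespace Cfsg.Agent.Sym

open Finset Equiv Function

variable {m p : ℕ} {b γ : Fin m → ℕ}

/-- The number of beads below bead `i` on its runner. -/
def rk (p : ℕ) (b : Fin m → ℕ) (i : Fin m) : ℕ := #{j | b j % p = b i % p ∧ b j < b i}

/-- The `p`-core. -/
def core (p : ℕ) (b : Fin m → ℕ) (i : Fin m) : ℕ := b i % p + p * rk p b i

/-- The gaps below bead `i` on its runner. -/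
def gp (p : ℕ) (b : Fin m → ℕ) (i : Fin m) : Finset ℕ :=
  {t ∈ Icc 1 (b i / p) | ∀ j, b j + p * t ≠ b i}

/-- The `p`-weight. -/
def wt (p : ℕ) (b : Fin m → ℕ) : ℕ := ∑ i, #(gp p b i)

theorem mem_gp (hp : 0 < p) {i : Fin m} {t : ℕ} :
    t ∈ gp p b i ↔ 1 ≤ t ∧ p * t ≤ b i ∧ ∀ j, b j + p * t ≠ b i := by
  rw [gp, mem_filter, mem_Icc, Nat.le_div_iff_mul_le hp, mul_comm t, and_assoc]

theorem exists_add_of_mod {x y : ℕ} (h : x % p = y % p) (h1 : x ≤ y) : ∃ t, x + p * t = y := by
  obtain ⟨t, ht⟩ := (Nat.modEq_iff_dvd' h1).1 h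
  exact ⟨t, by omega⟩

theorem card_gp (hp : 0 < p) (hb : Injective b) (i : Fin m) : #(gp p b i) + rk p b i = b i / p := by
  have h := card_filter_add_card_filter_not (s := Icc 1 (b i / p)) fun t => ∀ j, b j + p * t ≠ b i
  rw [Nat.card_Icc, Nat.add_sub_cancel] at h
  rw [← h, gp, rk]
  congr 1
  refine card_bij (fun j _ => (b i - b j) / p) (fun j hj => ?_) (fun j hj k hk e => hb ?_)
    fun t ht => ?_
  · obtain ⟨t, ht⟩ := exists_add_of_mod (mem_filter.1 hj).2.1 (mem_filter.1 hj).2.2.le
    have h1 : (b i - b j) / p = t := by rw [← ht, Nat.add_sub_cancel_left, Nat.mul_div_cancel_left _ hp]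
    rw [h1, mem_filter, mem_Icc, Nat.le_div_iff_mul_le hp, mul_comm t]
    refine ⟨⟨Nat.pos_of_ne_zero ?_, by omega⟩, fun h2 => h2 j ht⟩
    rintro rfl
    exact (mem_filter.1 hj).2.2.ne ht
  · obtain ⟨t, ht⟩ := exists_add_of_mod (mem_filter.1 hj).2.1 (mem_filter.1 hj).2.2.le
    obtain ⟨s, hs⟩ := exists_add_of_mod (mem_filter.1 hk).2.1 (mem_filter.1 hk).2.2.le
    have h1 : (b i - b j) / p = t := by rw [← ht, Nat.add_sub_cancel_left, Nat.mul_div_cancel_left _ hp]
    have h2 : (b i - b k) / p = s := by rw [← hs, Nat.add_sub_cancel_left, Nat.mul_div_cancel_left _ hp]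
    simp only [h1, h2] at e
    subst e
    omega
  · obtain ⟨h1, h2⟩ := mem_filter.1 ht
    push Not at h2
    obtain ⟨j, hj⟩ := h2
    have h3 : 0 < p * t := Nat.mul_pos hp (mem_Icc.1 h1).1
    refine ⟨j, mem_filter.2 ⟨mem_univ _, by rw [← hj, Nat.add_mul_mod_self_left], by omega⟩, ?_⟩
    rw [← hj, Nat.add_sub_cancel_left, Nat.mul_div_cancel_left _ hp]

theorem core_add (hp : 0 < p) (hb : Injective b) (i : Fin m) :
    core p b i + p * #(gp p b i) = b i := by
  rw [core, add_assoc, ← mul_add, add_comm (rk p b i), card_gp hp hb, Nat.mod_add_div]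

theorem sum_core (hp : 0 < p) (hb : Injective b) : ∑ i, core p b i + p * wt p b = ∑ i, b i := by
  rw [wt, mul_sum, ← sum_add_distrib]
  exact sum_congr rfl fun i _ => core_add hp hb i

theorem core_mod (i : Fin m) : core p b i % p = b i % p := by
  rw [core, Nat.add_mul_mod_self_left, Nat.mod_mod]

theorem core_div (hp : 0 < p) (i : Fin m) : core p b i / p = rk p b i := by
  rw [core, Nat.add_mul_div_left _ _ hp, Nat.div_eq_of_lt (Nat.mod_lt _ hp), zero_add]

theorem rk_lt {i j : Fin m} (h : b i % p = b j % p) (h1 : b i < b j) : rk p b i < rk p b j :=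
  card_lt_card ⟨fun k hk => mem_filter.2 ⟨mem_univ _, (mem_filter.1 hk).2.1.trans h,
    (mem_filter.1 hk).2.2.trans h1⟩, fun h2 =>
      (mem_filter.1 (h2 (mem_filter.2 ⟨mem_univ i, h, h1⟩))).2.2.false⟩

theorem rk_inj (hb : Injective b) {i j : Fin m} (h : b i % p = b j % p) (e : rk p b i = rk p b j) :
    i = j := by
  rcases lt_trichotomy (b i) (b j) with h1 | h1 | h1
  · exact absurd e (rk_lt h h1).ne
  · exact hb h1
  · exact absurd e (rk_lt h.symm h1).ne'

theorem inj_core (hp : 0 < p) (hb : Injective b) : Injective (core p b) := fun i j e =>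
  rk_inj hb (by rw [← core_mod, e, core_mod]) (by rw [← core_div hp, e, core_div hp])

theorem mem_core (hp : 0 < p) (hb : Injective b) {x : ℕ} :
    (∃ i, core p b i = x) ↔ x / p < #{j | b j % p = x % p} := by
  have h1 : ∀ i, rk p b i < #{j | b j % p = b i % p} := fun i =>
    card_lt_card ⟨fun k hk => mem_filter.2 ⟨mem_univ _, (mem_filter.1 hk).2.1⟩, fun h2 =>
      (mem_filter.1 (h2 (mem_filter.2 ⟨mem_univ i, rfl⟩))).2.2.false⟩
  constructor
  · rintro ⟨i, rfl⟩
    rw [core_div hp, core_mod]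
    exact h1 i
  · intro h
    obtain ⟨i, hi, e⟩ := surj_on_of_inj_on_of_card_le (s := {j | b j % p = x % p})
      (t := range #{j | b j % p = x % p}) (fun i _ => rk p b i)
      (fun i hi => by rw [mem_range, ← (mem_filter.1 hi).2]; exact h1 i)
      (fun i j hi hj e => rk_inj hb ((mem_filter.1 hi).2.trans (mem_filter.1 hj).2.symm) e)
      (card_range _).le _ (mem_range.2 h)
    exact ⟨i, by rw [core, (mem_filter.1 hi).2, ← e, Nat.mod_add_div]⟩

theorem exists_perm_core (hp : 0 < p) (hb : Injective b) {b' : Fin m → ℕ} (hb' : Injective b')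
    (h : ∀ i, b' i % p = b i % p) : ∃ σ : Perm (Fin m), core p b' = core p b ∘ σ := by
  have h1 : ∀ i, ∃ j, core p b j = core p b' i := fun i => by
    have := (mem_core hp hb').1 ⟨i, rfl⟩
    simp only [h] at this
    exact (mem_core hp hb).2 this
  choose f hf using h1
  have h2 : Injective f := fun i j e => inj_core hp hb' (by rw [← hf, e, hf])
  exact ⟨Equiv.ofBijective f (Finite.injective_iff_bijective.1 h2), funext fun i => (hf i).symm⟩

theorem wt_add (hp : 0 < p) (hb : Injective b) {b' : Fin m → ℕ} (hb' : Injective b')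
    (h : ∀ i, b' i % p = b i % p) {t : ℕ} (hs : ∑ i, b' i + p * t = ∑ i, b i) :
    wt p b' + t = wt p b := by
  obtain ⟨σ, e⟩ := exists_perm_core hp hb hb' h
  have h1 := sum_core hp hb
  have h2 := sum_core hp hb'
  rw [e] at h2
  have h3 : ∑ i, (core p b ∘ σ) i = ∑ i, core p b i := Equiv.sum_comp σ _
  exact Nat.eq_of_mul_eq_mul_left hp (by rw [mul_add]; omega)

theorem inj_update (hb : Injective b) {i : Fin m} {x : ℕ} (h : ∀ j, j ≠ i → b j ≠ x) :
    Injective (update b i x) := fun j k e => by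
  by_cases hj : j = i <;> by_cases hk : k = i
  · rw [hj, hk]
  · rw [hj, update_self, update_of_ne hk] at e; exact absurd e.symm (h k hk)
  · rw [hk, update_self, update_of_ne hj] at e; exact absurd e (h j hj)
  · rw [update_of_ne hj, update_of_ne hk] at e; exact hb e

theorem not_inj_update {i j : Fin m} {x : ℕ} (h : j ≠ i) (e : b j = x) :
    ¬ Injective (update b i x) := fun h1 => h (h1 (by rw [update_of_ne h, update_self, e]))

theorem update_mod {i : Fin m} {x : ℕ} (h : x % p = b i % p) (j : Fin m) :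
    update b i x j % p = b j % p := by
  by_cases hj : j = i
  · rw [hj, update_self, h]
  · rw [update_of_ne hj]

theorem wt_update (hp : 0 < p) (hb : Injective b) {i : Fin m} {t : ℕ} (ht : t ∈ gp p b i) :
    Injective (update b i (b i - p * t)) ∧ wt p (update b i (b i - p * t)) + t = wt p b := by
  obtain ⟨-, h1, h2⟩ := (mem_gp hp).1 ht
  have h3 := inj_update (x := b i - p * t) (i := i) hb fun j _ e => h2 j (by omega)
  refine ⟨h3, wt_add hp hb h3 (update_mod ?_) (by have := sum_update_add b i (b i - p * t); omega)⟩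
  conv_rhs => rw [← Nat.sub_add_cancel h1, Nat.add_mul_mod_self_left]

theorem le_wt (hp : 0 < p) (hb : Injective b) {i : Fin m} {t : ℕ} (ht : t ∈ gp p b i) :
    t ≤ wt p b := (wt_update hp hb ht).2 ▸ Nat.le_add_left _ _

theorem core_update (hp : 0 < p) (hb : Injective b) {i : Fin m} (ht : 1 ∈ gp p b i) :
    core p (update b i (b i - p)) = core p b := by
  obtain ⟨-, h1, h2⟩ := (mem_gp hp).1 ht
  rw [mul_one] at h1 h2
  have h3 : (b i - p) % p = b i % p := by
    conv_rhs => rw [← Nat.sub_add_cancel h1, Nat.add_mod_right]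
  have h4 : ∀ j, j ≠ i → b j % p = b i % p →
      (b j < b i - p ↔ b j < b i) ∧ (b i - p < b j ↔ b i < b j) := fun j hj h => by
    have h5 := h2 j
    have h6 := hb.ne hj
    rcases le_total (b j) (b i) with h7 | h7
    · obtain ⟨t, e⟩ := exists_add_of_mod h h7
      rcases t with _ | _ | t
      · omega
      · omega
      · rw [add_assoc, mul_add] at e; omega
    · omega
  funext k
  rw [core, core, update_mod h3, rk, rk]
  congr 3
  ext j
  simp only [mem_filter, mem_univ, true_and, update_mod h3]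
  refine and_congr_right fun h => ?_
  by_cases hj : j = i <;> by_cases hk : k = i
  · simp [hj, hk]
  · subst hj
    rw [update_self, update_of_ne hk, (h4 k hk h.symm).2]
  · subst hk
    rw [update_self, update_of_ne hj, (h4 j hj h).1]
  · rw [update_of_ne hj, update_of_ne hk]

theorem exists_one_mem_gp (hp : 0 < p) (t : ℕ) : ∀ i, t ∈ gp p b i → ∃ j, 1 ∈ gp p b j := by
  induction t with
  | zero => exact fun i h => absurd ((mem_gp hp).1 h).1 (by omega)
  | succ t ih =>
    intro i h
    obtain ⟨-, h1, h2⟩ := (mem_gp hp).1 h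
    rw [mul_add, mul_one] at h1 h2
    by_cases h3 : ∀ j, b j + p * 1 ≠ b i
    · exact ⟨i, (mem_gp hp).2 ⟨le_rfl, by omega, h3⟩⟩
    · push Not at h3
      obtain ⟨j, hj⟩ := h3
      refine ih j ((mem_gp hp).2 ⟨Nat.pos_of_ne_zero ?_, by omega, fun k e => h2 k (by omega)⟩)
      rintro rfl
      exact h2 j (by omega)

theorem cf_update_of_notMem (hp : 0 < p) {t : ℕ} (ht : 1 ≤ t) {i : Fin m} (h : t ∉ gp p b i)
    (ν : Multiset ℕ) : (if p * t ≤ b i then cf ν (update b i (b i - p * t)) else 0) = 0 := by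
  split_ifs with h1
  · rw [mem_gp hp] at h
    push Not at h
    obtain ⟨j, hj⟩ := h ht h1
    have h2 : 0 < p * t := Nat.mul_pos hp ht
    exact (anti_cf ν).eq_zero (not_inj_update (j := j) (by rintro rfl; omega) (by omega))
  · rfl

theorem cf_cons_eq_zero (hp : 0 < p) {t : ℕ} (ht : 1 ≤ t) (h : ∀ i, t ∉ gp p b i)
    (ν : Multiset ℕ) : cf ((p * t) ::ₘ ν) b = 0 := by
  rw [cf_cons]
  exact sum_eq_zero fun i _ => cf_update_of_notMem hp ht (h i) ν

/-- Removing all `p`-hooks. -/
theorem cf_path (hp : 0 < p) (w : ℕ) : ∀ b : Fin m → ℕ, Injective b → wt p b = w →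
    ∃ N : ℕ, 0 < N ∧ ∀ ν, cf (Multiset.replicate w p + ν) b = N * cf ν (core p b) := by
  induction w with
  | zero =>
    refine fun b hb h => ⟨1, one_pos, fun ν => ?_⟩
    have : core p b = b := funext fun i => by
      rw [← core_add hp hb i, sum_eq_zero_iff.1 h i (mem_univ i), mul_zero, add_zero]
    simp [this]
  | succ w ih =>
    intro b hb h
    have h1 : ∀ i, ∃ N : ℕ, (1 ∈ gp p b i → 0 < N) ∧ ∀ ν, (if p ≤ b i then
        cf (Multiset.replicate w p + ν) (update b i (b i - p)) else 0) = N * cf ν (core p b) := by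
      intro i
      by_cases hi : 1 ∈ gp p b i
      · have h2 := wt_update hp hb hi
        rw [mul_one] at h2
        obtain ⟨N, h3, h4⟩ := ih _ h2.1 (by omega)
        exact ⟨N, fun _ => h3, fun ν => by
          rw [if_pos (by simpa using ((mem_gp hp).1 hi).2.1), h4, core_update hp hb hi]⟩
      · exact ⟨0, fun h2 => absurd h2 hi, fun ν => by
          simpa using cf_update_of_notMem hp le_rfl hi _⟩
    choose N h2 h3 using h1
    obtain ⟨i, -, hi⟩ := exists_ne_zero_of_sum_ne_zero (h.trans_ne w.succ_ne_zero)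
    obtain ⟨t, ht⟩ := card_ne_zero.1 hi
    obtain ⟨j, hj⟩ := exists_one_mem_gp hp t i ht
    refine ⟨∑ i, N i, (h2 j hj).trans_le (single_le_sum (fun _ _ => Nat.zero_le _) (mem_univ j)),
      fun ν => ?_⟩
    rw [Multiset.replicate_succ, Multiset.cons_add, cf_cons, Nat.cast_sum, sum_mul]
    exact sum_congr rfl fun i _ => h3 i ν

/-- The valuation of the hook product. -/
def dfc (p : ℕ) (b : Fin m → ℕ) : ℕ := ∑ i, ∑ t ∈ gp p b i, (t.factorization p + 1)

theorem factorization_hk (hp : p.Prime) (b : Fin m → ℕ) : (hk b).factorization p = dfc p b := by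
  have h0 : ∀ i, ∀ g ∈ range (b i) \ univ.image b, b i - g ≠ 0 := fun i g hg =>
    (Nat.sub_pos_of_lt (mem_range.1 (mem_sdiff.1 hg).1)).ne'
  rw [hk, Nat.factorization_prod fun i _ => prod_ne_zero_iff.2 (h0 i), Finsupp.finsetSum_apply]
  refine sum_congr rfl fun i _ => ?_
  rw [Nat.factorization_prod (h0 i), Finsupp.finsetSum_apply,
    ← sum_filter_of_ne (p := fun g => p ∣ b i - g) fun g _ h => by
      by_contra h1; exact h (Nat.factorization_eq_zero_of_not_dvd h1)]
  refine (sum_bij (fun t _ => b i - p * t) (fun t ht => ?_) (fun t ht s hs e => ?_) (fun g hg => ?_)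
    fun t ht => ?_).symm
  · obtain ⟨h1, h2, h3⟩ := (mem_gp hp.pos).1 ht
    have h4 := Nat.mul_pos hp.pos h1
    simp only [mem_filter, mem_sdiff, mem_range, mem_image, mem_univ, true_and, not_exists]
    exact ⟨⟨by omega, fun j e => h3 j (by omega)⟩, by rw [Nat.sub_sub_self h2]; exact dvd_mul_right _ _⟩
  · have h1 := ((mem_gp hp.pos).1 ht).2.1
    have h2 := ((mem_gp hp.pos).1 hs).2.1
    exact Nat.eq_of_mul_eq_mul_left hp.pos (by omega)
  · simp only [mem_filter, mem_sdiff, mem_range, mem_image, mem_univ, true_and, not_exists] at hg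
    obtain ⟨⟨h1, h2⟩, t, ht⟩ := hg
    refine ⟨t, (mem_gp hp.pos).2 ⟨Nat.pos_of_ne_zero ?_, by omega, fun j e => h2 j (by omega)⟩,
      by omega⟩
    rintro rfl
    omega
  · obtain ⟨h1, h2, -⟩ := (mem_gp hp.pos).1 ht
    rw [Nat.sub_sub_self h2, Nat.factorization_mul hp.ne_zero (by omega), Finsupp.add_apply,
      hp.factorization_self, add_comm]

theorem dfc_eq : dfc p b = wt p b + ∑ i, ∑ t ∈ gp p b i, t.factorization p := by
  simp only [dfc, wt, sum_add_distrib, sum_const, smul_eq_mul, mul_one, add_comm]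

theorem dfc_of_lt (hp : 0 < p) (hb : Injective b) (h : wt p b < p) : dfc p b = wt p b := by
  rw [dfc_eq, sum_eq_zero fun i _ => sum_eq_zero fun t ht =>
    Nat.factorization_eq_zero_of_lt ((le_wt hp hb ht).trans_lt h), add_zero]

theorem Lab.factorization {Ω : Type*} [Fintype Ω] [DecidableEq Ω] {χ : IrrCharacter (Perm Ω)}
    (h : Lab χ b) (hp : p.Prime) :
    (charDegree χ.1).factorization p + dfc p b = (Fintype.card Ω).factorial.factorization p := by
  rw [← h.deg_mul, Nat.factorization_mul (Block.charDegree_ne_zero χ) (hk_ne b), Finsupp.add_apply,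
    factorization_hk hp]

end Cfsg.Agent.Sym
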