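import Cfsg.Agent.Lib.Sym.Sym3

/-! Explicit members of a block of the symmetric group with prescribed valuations. -/

set_option autoImplicit false

namespace Cfsg.Agent.Sym

open Finset Equiv Function

variable {m p n : ℕ} {b γ a : Fin m → ℕ}

/-- The valuation of `(p a)!`. -/
def V (p a : ℕ) : ℕ := (p * a).factorial.factorization p

theorem V_zero : V p 0 = 0 := by simp [V]

theorem V_succ (hp : p.Prime) (a : ℕ) : V p (a + 1) = V p a + (a + 1).factorization p + 1 :=
  Nat.factorization_factorial_mul_succ hp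

theorem sum_Icc_V (hp : p.Prime) (a : ℕ) : ∑ t ∈ Icc 1 a, (t.factorization p + 1) = V p a := by
  induction a with
  | zero => simp [V]
  | succ a ih => rw [sum_Icc_succ_top (by omega), ih, V_succ hp, add_assoc]

theorem factorial_mul_add (hp : p.Prime) (N : ℕ) {r : ℕ} (hr : r < p) :
    (p * N + r).factorial.factorization p = V p N := by
  haveI := Fact.mk hp
  rw [V, Nat.factorization_def _ hp, Nat.factorization_def _ hp, padicValNat_factorial_mul_add N hr]

theorem V_mul_add (hp : p.Prime) (N : ℕ) {r : ℕ} (hr : r < p) :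
    V p (p * N + r) = V p N + (p * N + r) := by
  rw [V, Nat.factorization_factorial_mul hp, factorial_mul_add hp N hr]

theorem V_of_lt (hp : p.Prime) {r : ℕ} (hr : r < p) : V p r = r := by
  simpa [V_zero] using V_mul_add hp 0 hr

theorem good_mul_add (hp : p.Prime) {N r : ℕ} (hr : r < p)
    (h : ∃ a c, a + c = N ∧ V p a + V p c + 1 = V p N) :
    ∃ a c, a + c = p * N + r ∧ V p a + V p c + 1 = V p (p * N + r) := by
  obtain ⟨a, c, rfl, h⟩ := h
  have h1 := V_mul_add hp c hp.pos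
  rw [add_zero] at h1
  exact ⟨p * a + r, p * c, by ring, by rw [V_mul_add hp _ hr, V_mul_add hp _ hr, h1, mul_add]; omega⟩

theorem good_mul (hp : p.Prime) (u : ℕ) : 0 < u →
    ∃ a c, a + c = p * u ∧ V p a + V p c + 1 = V p (p * u) := by
  induction u using Nat.strong_induction_on with
  | _ u ih =>
    intro hu
    by_cases h : p ∣ u
    · obtain ⟨v, rfl⟩ := h
      have hv : 0 < v := Nat.pos_of_mul_pos_left hu
      exact good_mul_add hp hp.pos (ih v ((Nat.lt_mul_iff_one_lt_left hv).2 hp.one_lt) hv)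
    · obtain ⟨c, hc⟩ := Nat.exists_eq_add_one_of_ne_zero (Nat.mul_pos hp.pos hu).ne'
      refine ⟨1, c, by omega, ?_⟩
      rw [hc, V_succ hp c, ← hc, V_of_lt hp hp.one_lt, Nat.factorization_mul hp.ne_zero hu.ne',
        Finsupp.add_apply, hp.factorization_self, Nat.factorization_eq_zero_of_not_dvd h]
      omega

theorem exists_split (hp : p.Prime) {w : ℕ} (hw : p ≤ w) : (p = 2 ∧ w % 4 = 3) ∨
    ∃ k, k ≤ p ∧ k ≤ 3 ∧ ∃ c : Fin k → ℕ, ∑ r, c r = w ∧ ∑ r, V p (c r) + 1 = V p w := by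
  have h0 : (∃ a c, a + c = w ∧ V p a + V p c + 1 = V p w) →
      ∃ k, k ≤ p ∧ k ≤ 3 ∧ ∃ c : Fin k → ℕ, ∑ r, c r = w ∧ ∑ r, V p (c r) + 1 = V p w :=
    fun ⟨a, c, h⟩ => ⟨2, hp.two_le, by omega, ![a, c], by simpa using h⟩
  have hr := Nat.mod_lt w hp.pos
  obtain ⟨q, hq⟩ := Nat.exists_eq_add_one_of_ne_zero (Nat.div_pos hw hp.pos).ne'
  have h1 := Nat.div_add_mod w p
  rw [hq] at h1
  generalize w % p = r at hr h1
  subst h1
  by_cases h : p ∣ q + 1
  · obtain ⟨u, hu⟩ := h
    exact .inr (h0 (good_mul_add hp hr (hu ▸ good_mul hp u (Nat.pos_of_mul_pos_left (q.succ_pos.trans_eq hu)))))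
  rcases r.eq_zero_or_pos with rfl | h2
  · exact .inr (h0 (good_mul hp _ q.succ_pos))
  rcases hp.eq_two_or_odd' with rfl | h3
  · exact .inl ⟨rfl, by omega⟩
  · have h4 := hp.two_le
    refine .inr ⟨3, by obtain ⟨k, rfl⟩ := h3; omega, le_rfl, ![p - 1, 1, p * q + r], ?_, ?_⟩
    · simp only [Fin.sum_univ_three, Matrix.cons_val, mul_add]; omega
    · simp only [Fin.sum_univ_three, Matrix.cons_val]
      rw [V_mul_add hp _ hr, V_mul_add hp _ hr, V_of_lt hp hp.one_lt, V_of_lt hp (by omega),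
        V_succ hp, Nat.factorization_eq_zero_of_not_dvd h, mul_add]
      omega

/-- No gaps on the runners. -/
def DC (p : ℕ) (γ : Fin m → ℕ) : Prop := ∀ i t, p * t ≤ γ i → ∃ j, γ j + p * t = γ i

/-- Only top beads move. -/
def MT (p : ℕ) (γ a : Fin m → ℕ) : Prop := ∀ i, a i ≠ 0 → ∀ j, γ j % p = γ i % p → γ j ≤ γ i

theorem dc_core (hp : 0 < p) (hb : Injective b) : DC p (core p b) := fun i t h => by
  have h1 := (mem_core hp hb).1 ⟨i, rfl⟩
  have h2 : (core p b i - p * t) % p = core p b i % p := by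
    conv_rhs => rw [← Nat.sub_add_cancel h, Nat.add_mul_mod_self_left]
  obtain ⟨j, hj⟩ := (mem_core hp hb (x := core p b i - p * t)).2
    (h2 ▸ (Nat.div_le_div_right (Nat.sub_le _ _)).trans_lt h1)
  exact ⟨j, by omega⟩

theorem MT.eq_zero (ha : MT p γ a) {i j : Fin m} (h : γ i % p = γ j % p) (h1 : γ i < γ j) :
    a i = 0 := by
  by_contra h2
  exact (ha i h2 j h.symm).not_gt h1

theorem MT.inj (ha : MT p γ a) (hγ : Injective γ) : Injective fun i => γ i + p * a i := by
  intro i j e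
  have h : γ i % p = γ j % p := by
    simpa only [Nat.add_mul_mod_self_left] using congrArg (· % p) e
  rcases lt_trichotomy (γ i) (γ j) with h1 | h1 | h1
  · simp only [ha.eq_zero h h1] at e; omega
  · exact hγ h1
  · simp only [ha.eq_zero h.symm h1] at e; omega

theorem MT.gp_eq (ha : MT p γ a) (hp : 0 < p) (hγ : Injective γ) (hd : DC p γ) (i : Fin m) :
    gp p (fun i => γ i + p * a i) i = Icc 1 (a i) := by
  ext t
  rw [mem_gp hp, mem_Icc]
  refine and_congr_right fun h1 => ⟨fun ⟨h2, h3⟩ => ?_, fun h2 => ?_⟩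
  · by_contra h4
    obtain ⟨s, rfl⟩ := Nat.exists_eq_add_of_lt (not_le.1 h4)
    rw [add_assoc, mul_add] at h2 h3
    obtain ⟨j, hj⟩ := hd i (s + 1) (by omega)
    have h5 : 0 < p * (s + 1) := Nat.mul_pos hp s.succ_pos
    refine h3 j ?_
    rw [ha.eq_zero (by rw [← hj, Nat.add_mul_mod_self_left]) (by omega : γ j < γ i)]
    omega
  · have h3 := Nat.mul_le_mul_left p h2
    have h4 := Nat.mul_pos hp h1
    refine ⟨by omega, fun j e => ?_⟩
    have h : γ j % p = γ i % p := by
      simpa only [Nat.add_mul_mod_self_left] using congrArg (· % p) e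
    rcases (ha i (by omega) j h).lt_or_eq with h5 | h5
    · rw [ha.eq_zero h h5] at e; omega
    · rw [hγ h5] at e; omega

theorem MT.core_eq (ha : MT p γ a) (hp : 0 < p) (hγ : Injective γ) (hd : DC p γ) :
    core p (fun i => γ i + p * a i) = γ := funext fun i => by
  have := core_add hp (ha.inj hγ) i
  rw [ha.gp_eq hp hγ hd, Nat.card_Icc, Nat.add_sub_cancel] at this
  omega

theorem MT.wt_eq (ha : MT p γ a) (hp : 0 < p) (hγ : Injective γ) (hd : DC p γ) :
    wt p (fun i => γ i + p * a i) = ∑ i, a i := by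
  simp [wt, ha.gp_eq hp hγ hd]

theorem MT.dfc_eq (ha : MT p γ a) (hp : p.Prime) (hγ : Injective γ) (hd : DC p γ) :
    dfc p (fun i => γ i + p * a i) = ∑ i, V p (a i) := by
  simp only [dfc, ha.gp_eq hp.pos hγ hd, sum_Icc_V hp]

theorem MT.cf_two (ha : MT p γ a) (hp : 0 < p) (hγ : Injective γ) (hd : DC p γ) {j : Fin m}
    (hj : 2 ≤ a j) : ∃ N : ℕ, 0 < N ∧ ∀ ν, cf ((p * 2) ::ₘ (Multiset.replicate (∑ i, a i - 2) p + ν))
      (fun i => γ i + p * a i) = N * cf ν γ := by
  have h1 : ∀ i, ∃ N : ℕ, (2 ≤ a i → 0 < N) ∧ ∀ ν, (if p * 2 ≤ γ i + p * a i then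
      cf (Multiset.replicate (∑ i, a i - 2) p + ν) (update (fun i => γ i + p * a i) i
        (γ i + p * a i - p * 2)) else 0) = N * cf ν γ := by
    intro i
    by_cases hi : 2 ≤ a i
    · have h2 : MT p γ (update a i (a i - 2)) := fun k hk => ha k (by
        by_cases h : k = i
        · subst h; omega
        · rwa [update_of_ne h] at hk)
      have h3 := Nat.mul_le_mul_left p hi
      have h4 : update (fun i => γ i + p * a i) i (γ i + p * a i - p * 2) =
          fun k => γ k + p * update a i (a i - 2) k := funext fun k => by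
        by_cases h : k = i
        · subst h; rw [update_self, update_self, Nat.mul_sub]; omega
        · rw [update_of_ne h, update_of_ne h]
      obtain ⟨N, h5, h6⟩ := cf_path hp (∑ i, a i - 2) _ (h2.inj hγ) (by
        have := sum_update_add a i (a i - 2)
        rw [h2.wt_eq hp hγ hd]; omega)
      exact ⟨N, fun _ => h5, fun ν => by rw [if_pos (by omega), h4, h6, h2.core_eq hp hγ hd]⟩
    · exact ⟨0, fun h2 => absurd h2 hi, fun ν => by
        simpa using cf_update_of_notMem (b := fun i => γ i + p * a i) (i := i) hp one_le_two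
          (by rw [ha.gp_eq hp hγ hd, mem_Icc]; omega) _⟩
  choose N h2 h3 using h1
  refine ⟨∑ i, N i, (h2 j hj).trans_le (single_le_sum (fun _ _ => Nat.zero_le _) (mem_univ j)),
    fun ν => ?_⟩
  rw [cf_cons, Nat.cast_sum, sum_mul]
  exact sum_congr rfl fun i _ => h3 i ν

theorem exists_top (hγ : Injective γ) (hs : ∑ i, γ i = n + tri m) {r : ℕ} (hr : r + n < m) :
    ∃ i, γ i % p = r % p ∧ r ≤ γ i ∧ ∀ j, γ j % p = γ i % p → γ j ≤ γ i := by
  obtain ⟨j, hj⟩ := occ hγ hs hr
  obtain ⟨i, h1, h2⟩ := exists_max_image {i | γ i % p = r % p} γ ⟨j, by simp [hj]⟩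
  exact ⟨i, (mem_filter.1 h1).2, hj ▸ h2 j (by simp [hj]), fun k hk =>
    h2 k (mem_filter.2 ⟨mem_univ _, hk.trans (mem_filter.1 h1).2⟩)⟩

theorem exists_mt (hγ : Injective γ) (hs : ∑ i, γ i = n + tri m) {k : ℕ} (hk : k ≤ p)
    (hm : k + n ≤ m) (c : Fin k → ℕ) : ∃ a, MT p γ a ∧ (∀ r, ∃ i, a i = c r) ∧
      ∀ F : ℕ → ℕ, F 0 = 0 → ∑ i, F (a i) = ∑ r, F (c r) := by
  choose top h1 h2 h3 using fun r : Fin k => exists_top (p := p) (r := r) hγ hs (by omega)
  have hi : Injective top := fun r s e => Fin.ext (by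
    rw [← Nat.mod_eq_of_lt (r.2.trans_le hk), ← h1, e, h1, Nat.mod_eq_of_lt (s.2.trans_le hk)])
  refine ⟨extend top c 0, fun i h => ?_, fun r => ⟨top r, hi.extend_apply _ _ r⟩, fun F hF =>
    (Fintype.sum_of_injective top hi _ _ (fun i h => by rw [extend_apply' _ _ _ h]; exact hF)
      fun r => by rw [hi.extend_apply]).symm⟩
  by_cases h4 : ∃ r, top r = i
  · obtain ⟨r, rfl⟩ := h4
    exact h3 r
  · exact absurd (extend_apply' _ _ _ h4) h

/-- `b'` has the same size and the same core as `b`. -/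
def Eqv (p : ℕ) (b b' : Fin m → ℕ) : Prop :=
  Injective b' ∧ (∀ i, b' i % p = b i % p) ∧ ∑ i, b' i = ∑ i, b i

theorem MT.eqv (ha : MT p (core p b) a) (hp : 0 < p) (hb : Injective b) (h : ∑ i, a i = wt p b) :
    Eqv p b fun i => core p b i + p * a i :=
  ⟨ha.inj (inj_core hp hb), fun i => by rw [Nat.add_mul_mod_self_left, core_mod], by
    rw [sum_add_distrib, ← mul_sum, h, sum_core hp hb]⟩

theorem mul_wt_le (hp : 0 < p) (hb : Injective b) (hs : ∑ i, b i = n + tri m) : p * wt p b ≤ n := by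
  have := sum_core hp hb
  have := tri_le (inj_core hp hb)
  omega

theorem sum_core_eq (hp : 0 < p) (hb : Injective b) (hs : ∑ i, b i = n + tri m) :
    ∑ i, core p b i = n - p * wt p b + tri m := by
  have := sum_core hp hb
  have := mul_wt_le hp hb hs
  omega

theorem exists_max (hp : p.Prime) (hb : Injective b) (hs : ∑ i, b i = n + tri m) (hm : n < m) :
    ∃ b', Eqv p b b' ∧ dfc p b' = V p (wt p b) := by
  obtain ⟨a, h1, -, h2⟩ := exists_mt (inj_core hp.pos hb) (sum_core_eq hp.pos hb hs) hp.one_le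
    (by omega) ![wt p b]
  exact ⟨_, h1.eqv hp.pos hb (by simpa using h2 id rfl), by
    rw [h1.dfc_eq hp (inj_core hp.pos hb) (dc_core hp.pos hb), h2 _ V_zero]; simp⟩

theorem dfc_hook (hγ : Injective γ) (hd : DC 2 γ) {i j : Fin m} (hj : γ j + 2 = γ i)
    (ht : ∀ l, γ l % 2 = γ i % 2 → γ l ≤ γ i) (w : ℕ) :
    dfc 2 (update γ j (γ j + 2 * (w + 2))) = V 2 w + (w + 2).factorization 2 + 2 := by
  have hij : i ≠ j := by rintro rfl; omega
  have h0 : ∀ k t, t ∈ gp 2 (update γ j (γ j + 2 * (w + 2))) k ↔ 1 ≤ t ∧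
      2 * t ≤ update γ j (γ j + 2 * (w + 2)) k ∧ γ j + 2 * (w + 2) + 2 * t ≠
        update γ j (γ j + 2 * (w + 2)) k ∧ ∀ l, l ≠ j → γ l + 2 * t ≠
          update γ j (γ j + 2 * (w + 2)) k := fun k t => by
    rw [mem_gp two_pos, forall_update_iff γ fun _ x => x + 2 * t ≠ update γ j (γ j + 2 * (w + 2)) k]
  have h1 : gp 2 (update γ j (γ j + 2 * (w + 2))) j = insert (w + 2) (Icc 1 w) := by
    ext t
    rw [h0, update_self, mem_insert, mem_Icc]
    refine ⟨fun ⟨h1, h2, h3, h4⟩ => ?_, fun h => ⟨by omega, by omega, by omega, fun l hl e => ?_⟩⟩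
    · by_contra h5
      have h6 := h4 i hij
      obtain ⟨l, hl⟩ := hd j (t - (w + 2)) (by omega)
      exact h4 l (by rintro rfl; omega) (by omega)
    · have := ht l (by omega)
      have := hγ.ne hl
      omega
  have h2 : gp 2 (update γ j (γ j + 2 * (w + 2))) i = {1} := by
    ext t
    rw [h0, update_of_ne hij, mem_singleton]
    refine ⟨fun ⟨h1, h2, h3, h4⟩ => ?_, fun h => ⟨by omega, by omega, by omega, fun l hl e => ?_⟩⟩
    · by_contra h5
      obtain ⟨l, hl⟩ := hd i t h2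
      exact h4 l (by rintro rfl; omega) hl
    · exact hl (hγ (by omega))
  rw [dfc, sum_eq_add_of_mem j i (mem_univ _) (mem_univ _) hij.symm fun k _ hk => ?_, h1, h2,
    sum_insert (by simp), sum_Icc_V Nat.prime_two, sum_singleton, Nat.factorization_one]
  · simp only [Finsupp.coe_zero, Pi.zero_apply]; omega
  · refine sum_eq_zero fun t h => ?_
    rw [h0, update_of_ne hk.1] at h
    obtain ⟨l, hl⟩ := hd k t h.2.1
    have := ht k
    have := hγ.ne hk.2
    exact absurd hl (h.2.2.2 l (by rintro rfl; omega))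

theorem exists_one (hp : p.Prime) (hb : Injective b) (hs : ∑ i, b i = n + tri m) (hm : n + 3 ≤ m)
    (hw : p ≤ wt p b) (hw2 : p = 2 → 3 ≤ wt p b) : ∃ b', Eqv p b b' ∧
      dfc p b' + 1 = V p (wt p b) ∧ (p = 2 → ∃ μ : Multiset ℕ, (∀ a ∈ μ, 2 ≤ a) ∧
        μ.sum = 2 * wt p b ∧ Odd μ.card ∧ ∀ ν, cf ν (core p b') ≠ 0 → cf (μ + ν) b' ≠ 0) := by
  have hγ := inj_core hp.pos hb
  have hd := dc_core hp.pos hb
  have h0 : ∀ b', Eqv p b b' → p = 2 → Odd (wt p b) → ∃ μ : Multiset ℕ, (∀ a ∈ μ, 2 ≤ a) ∧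
      μ.sum = 2 * wt p b ∧ Odd μ.card ∧ ∀ ν, cf ν (core p b') ≠ 0 → cf (μ + ν) b' ≠ 0 := by
    rintro b' h rfl ho
    obtain ⟨N, h1, h2⟩ := cf_path two_pos (wt 2 b) b' h.1
      (wt_add (t := 0) two_pos hb h.1 h.2.1 h.2.2)
    exact ⟨.replicate (wt 2 b) 2, fun a ha => (Multiset.eq_of_mem_replicate ha).ge,
      by simp [mul_comm], by simpa, fun ν hν => h2 ν ▸ mul_ne_zero (by omega) hν⟩
  rcases exists_split hp hw with ⟨rfl, h⟩ | ⟨k, h1, h2, c, h3, h4⟩
  · obtain ⟨i, -, h1, h2⟩ := exists_top (p := 2) (r := 2) hγ (sum_core_eq two_pos hb hs) (by omega)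
    obtain ⟨j, hj⟩ := hd i 1 h1
    obtain ⟨w, hw⟩ := Nat.exists_eq_add_of_le' hw
    have h3 : Eqv 2 b (update (core 2 b) j (core 2 b j + 2 * (w + 2))) :=
      ⟨inj_update hγ fun l _ e => by have := h2 l; omega,
        fun l => by rw [update_mod (by omega), core_mod], by
          have := sum_update_add (core 2 b) j (core 2 b j + 2 * (w + 2))
          have := sum_core two_pos hb
          rw [hw] at this
          omega⟩
    refine ⟨_, h3, ?_, fun _ => h0 _ h3 rfl (Nat.odd_iff.2 (by omega))⟩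
    have h4 : (w + 1).factorization 2 = 1 := by
      rw [show w + 1 = 2 * ((w + 1) / 2) by omega, Nat.factorization_mul two_ne_zero (by omega),
        Finsupp.add_apply, hp.factorization_self, Nat.factorization_eq_zero_of_not_dvd (by omega)]
    rw [dfc_hook hγ hd hj h2, hw, V_succ hp, V_succ hp, h4, add_assoc w 1 1, one_add_one_eq_two]
    omega
  · obtain ⟨a, h5, h6, h7⟩ := exists_mt hγ (sum_core_eq hp.pos hb hs) h1 (by omega) c
    have h8 : ∑ i, a i = wt p b := (h7 id rfl).trans h3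
    refine ⟨_, h5.eqv hp.pos hb h8, by rw [h5.dfc_eq hp hγ hd, h7 _ V_zero, h4], fun h => ?_⟩
    rcases (wt p b).even_or_odd with h9 | h9
    · obtain ⟨r, hr⟩ : ∃ r, 2 ≤ c r := by
        by_contra h10
        push Not at h10
        have := sum_le_card_nsmul univ c 1 fun r _ => Nat.lt_succ_iff.1 (h10 r)
        rw [card_univ, Fintype.card_fin, smul_eq_mul, h3] at this
        have := hw2 h
        omega
      obtain ⟨i, hi⟩ := h6 r
      obtain ⟨N, h10, h11⟩ := h5.cf_two hp.pos hγ hd (hi ▸ hr)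
      subst h
      refine ⟨4 ::ₘ .replicate (wt 2 b - 2) 2, fun x hx => ?_, by simp; omega, ?_, fun ν hν => ?_⟩
      · rcases Multiset.mem_cons.1 hx with rfl | hx
        · omega
        · exact (Multiset.eq_of_mem_replicate hx).ge
      · rw [Multiset.card_cons, Multiset.card_replicate]
        exact (Nat.even_sub hw |>.2 (iff_of_true h9 even_two)).add_one
      · rw [h5.core_eq two_pos hγ hd] at hν
        rw [Multiset.cons_add, ← h8]
        exact h11 ν ▸ mul_ne_zero (by omega) hν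
    · exact h0 _ (h5.eqv hp.pos hb h8) h h9

end Cfsg.Agent.Sym
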