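import Cfsg.Agent.Lib.Ind.DefectZero
import Cfsg.Agent.Lib.Ind.CycExt
import Cfsg.Agent.Lib.Cover.Quot
import Cfsg.Agent.Lib.Block.Second

/-! General block theory used for the alternating groups. -/

set_option autoImplicit false

namespace Cfsg.Agent.Sym

open MonoidAlgebra Cfsg.Agent.Block Cfsg.Agent.Char Cfsg.Agent.Tr Subgroup
open scoped ComplexConjugate

variable {G K : Type*} [Group G] [Finite G] [Group K] [Finite K] {M : Ideal AlgInt}
  [hM : M.IsMaximal] {p : ℕ} [hp : Fact p.Prime] [CharP (Res M) p]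

omit hM [CharP (Res M) p] [Finite G] in
theorem exists_int_regTrunc [Fintype G] (χ : IrrCharacter G) : ∃ k : ℤ,
    (p : ℂ) ^ (Nat.card G).factorization p * classInner (Ind.regTrunc p χ.1) χ.1 = k := by
  have := Ind.inner_mem_of_elementary (Int.castAddHom ℂ).range (Ind.cf_smul
    ((p : ℂ) ^ (Nat.card G).factorization p) (Ind.cf_regTrunc p (Ind.cf_of_isIrr χ.2)))
    (fun E _ q hq hE lam => ?_) (isGen_of_isIrr χ.2)
  · obtain ⟨k, hk⟩ := this
    exact ⟨k, by rw [← Ind.inner_smul_left, ← hk]; rfl⟩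
  have := Ind.isNilpotent_of_isElementary hq hE
  have := Fintype.ofFinite (pPrimeCore p E)
  obtain ⟨m, hm⟩ := exists_nat_inner
    (isChar_restrict (isChar_restrict (isChar_of_isIrr χ.2) E) (pPrimeCore p E))
    (isChar_restrict (isChar_of_isIrr (isIrr_unitsHom lam)) (pPrimeCore p E))
  obtain ⟨j, hj⟩ := (Fit.isPGroup_pCore p E).exists_card_eq
  obtain ⟨c, hc⟩ := Nat.exists_eq_add_of_le ((hp.out.pow_dvd_iff_le_factorization
    Nat.card_pos.ne').1 (hj ▸ (card_subgroup_dvd_card (pCore p E)).trans (card_subgroup_dvd_card E)))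
  refine ⟨p ^ c * m, ?_⟩
  have h1 : (p : ℂ) ≠ 0 := Nat.cast_ne_zero.2 hp.out.ne_zero
  erw [Ind.inner_smul_left, Ind.inner_regTrunc_res p hp.out, hm, hj, hc]
  simp only [Int.coe_castAddHom]
  push_cast
  field_simp
  ring

/-- Brauer–Feit: a positive height is at most the defect minus two. -/
theorem height_add_two_le {B : Set (IrrCharacter G)} (hB : IsPBlock M B) {χ : IrrCharacter G}
    (hχ : χ ∈ B) (h0 : blockHeight p B χ.1 ≠ 0) : blockHeight p B χ.1 + 2 ≤ blockDefect p B := by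
  classical
  have := Fintype.ofFinite G
  by_contra hc
  have h1 := factorization_charDegree_eq (p := p) hχ
  obtain ⟨k, hk⟩ := exists_int_regTrunc (p := p) χ
  set S : ℝ := ∑ g, if p ∣ orderOf g then 0 else ‖χ.1 g‖ ^ 2 with hS
  have h2 : ev χ.1 (zreg p χ.1) = S := by
    rw [ev_zreg, hS]
    push_cast
    exact Finset.sum_congr rfl fun g _ => by split_ifs <;> simp [Complex.mul_conj']
  have h3 : classInner (Ind.regTrunc p χ.1) χ.1 = (Nat.card G : ℂ)⁻¹ * S := by
    rw [← h2, ev_zreg, classInner]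
    exact congrArg _ (Finset.sum_congr rfl fun g _ => by unfold Ind.regTrunc; split_ifs <;> simp)
  have h4 : ∑ g, ‖χ.1 g‖ ^ 2 = Nat.card G := by
    have h := Ind.inner_self_eq χ.1
    rw [inner_self_of_isIrr χ.2, eq_comm, ← Complex.ofReal_one, Complex.ofReal_inj,
      inv_mul_eq_one₀ (Nat.cast_ne_zero.2 Nat.card_pos.ne')] at h
    exact h.symm
  have h5 : ∀ g, (if p ∣ orderOf g then 0 else ‖χ.1 g‖ ^ 2) ≤ ‖χ.1 g‖ ^ 2 := fun g => by
    split_ifs <;> simp
  have h6 : 0 < S := Finset.sum_pos' (fun g _ => by split_ifs <;> simp) ⟨1, Finset.mem_univ _, by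
    simpa [hp.out.ne_one] using pow_pos (norm_pos_iff.2 (irr_apply_one_ne_zero χ)) 2⟩
  obtain ⟨t, ht, hG⟩ := natCast_eq_pow_mul (p := p) (Nat.card_pos (α := G)).ne'
  generalize (Nat.card G).factorization p = a at h1 hk hG
  have h7 : S = t * k := by
    rw [h3, hG] at hk
    have h8 : (p : ℂ) ≠ 0 := Nat.cast_ne_zero.2 hp.out.ne_zero
    have h9 : (t : ℂ) ≠ 0 := Nat.cast_ne_zero.2 (by rintro rfl; simp at ht)
    push_cast at hk
    field_simp at hk
    exact_mod_cast hk
  have h8 : 0 < k := by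
    rw [h7] at h6
    exact_mod_cast pos_of_mul_pos_right h6 t.cast_nonneg
  lift k to ℕ using h8.le
  have h9 : k ≠ 0 := by omega
  have h10 : t ≠ 0 := by rintro rfl; simp at ht
  have h11 : om χ.1 (zreg p χ.1) ∈ locIdeal M := by
    rw [← red_eq_zero_iff (om_zreg_mem_locRing χ (isChar_irr χ)), ← lam_zreg χ (isChar_irr χ)]
    exact by_contra fun h => h0 ((lam_zreg_ne_zero_iff hB hχ χ).1 h).2
  rw [om_apply, h2, h7, ← cast_charDegree, show (((t : ℝ) * ((k : ℤ) : ℝ) : ℝ) : ℂ) = (t * k : ℕ) by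
    push_cast; rfl, natCast_div_mem_locIdeal_iff p (mul_ne_zero h10 h9) (charDegree_ne_zero χ),
    Nat.factorization_mul h10 h9, Finsupp.add_apply, Nat.factorization_eq_zero_of_not_dvd ht] at h11
  have h12 : p ^ a ≤ k := Nat.le_of_dvd (by omega)
    ((hp.out.pow_dvd_iff_le_factorization h9).2 (by omega))
  have h13 := (Finset.sum_eq_sum_iff_of_le fun g _ => h5 g).1
    ((Finset.sum_le_sum fun g _ => h5 g).antisymm (by
      rw [h4, ← hS, h7, hG, mul_comm]; exact_mod_cast Nat.mul_le_mul_left t h12))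
  have h14 := blockOf_eq_singleton (M := M) (defect_zero_of_vanish (p := p) (χ := χ)
    fun g h1 hg => by simpa [dvd_orderOf_of_ne_one h1 hg] using (h13 g (Finset.mem_univ g)).symm)
  rw [← IsPBlock.eq_blockOf hB hχ] at h14
  exact h0 ((height_eq_zero_iff hχ).2 fun ψ hψ => by rw [h14] at hψ; rw [hψ])

/-- A consequence of Brauer's second main theorem. -/
theorem red_om_eq {x : G} (hx : ∃ k, orderOf x = p ^ k) (ι : K →* centralizer ({x} : Set G))
    (hι : Function.Injective ι) (hc : ∀ t ∈ cen ℂ K, push ℂ ι t ∈ cen ℂ _)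
    {E : Subgroup (centralizer ({x} : Set G))} [E.Normal] (hE : IsPGroup p E)
    (hr : ∀ g ∈ centralizer (E : Set (centralizer ({x} : Set G))), ¬ p ∣ orderOf g → g ∈ ι.range)
    {κ : IrrCharacter K} (hκ : idem {κ} ∈ SG K M) {χ : IrrCharacter G} {c : ℂ} (h0 : c ≠ 0)
    (hχ : ∀ y, χ.1 (ι y * x) = c * κ.1 y) {a : ℂ[G]} (ha : a ∈ cen ℂ G) (hs : a ∈ SG G M)
    (h1 : ∀ g, p ∣ orderOf g → a.coeff g = 0) :
    red M (om χ.1 a) = red M (om κ.1 (trunc ℂ ((centralizer {x}).subtype.comp ι) a)) := by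
  classical
  have := Fintype.ofFinite K
  set f := (centralizer ({x} : Set G)).subtype
  set t := trunc ℂ (f.comp ι) a
  have htc : t ∈ cen ℂ K := trunc_mem_cen _ ha
  have hts : t ∈ SG K M := trunc_mem_SG _ hs
  have h2 := om_mem_locRing κ htc hts
  have h3 := om_mem_locRing χ ha hs
  by_contra h
  have h4 : red M (om χ.1 a - om κ.1 t) ≠ 0 := by rwa [red_sub h3 h2, sub_ne_zero]
  have h5 := ev_push_mul_single_eq_zero (M := M) (subtype_injective _)
    (h := ⟨x, self_mem_centralizer_singleton x⟩) (isPPart_self hx) (range_subtype _).ge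
    (hc _ (idem_mem_cen {κ})) (push_mem_SG ι hκ) (by rw [← map_mul, idem_mul_self]) χ
    (a := (om χ.1 a - om κ.1 t)⁻¹ • (a - om κ.1 t • 1))
    (Subalgebra.smul_mem _ (sub_mem ha (Subalgebra.smul_mem _ (one_mem _) _)) _)
    (smul_mem_SG (inv_mem_locRing_of_red h4) (sub_mem hs (smul_mem_SG h2 (one_mem _))))
    (by rw [map_smul, map_sub, map_smul, om_one, smul_eq_mul, smul_eq_mul, mul_one,
      inv_mul_cancel₀ (ne_zero_of_red_ne_zero h4)]) fun ξ => ?_
  · have h6 : ∀ z : ℂ[K], ev χ.1 (push ℂ f (push ℂ ι z) * single x 1) = c * ev κ.1 z := fun z => by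
      induction z using MonoidAlgebra.induction_linear with
      | zero => simp
      | add a b ha hb => simp only [map_add, add_mul, mul_add, ha, hb]
      | single y r => simp [single_mul_single, f, hχ, mul_left_comm]
    rw [show f ⟨x, self_mem_centralizer_singleton x⟩ = x from rfl, h6, irr_ev_eq,
      om_idem_of_mem (Set.mem_singleton κ), one_mul] at h5
    exact mul_ne_zero h0 (irr_apply_one_ne_zero κ) h5
  · have h6 : t * idem {κ} = om κ.1 t • idem {κ} := cen_ext (mul_mem htc (idem_mem_cen _))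
      (Subalgebra.smul_mem _ (idem_mem_cen _) _) fun ψ => by
        rw [om_cen_mul ψ htc, map_smul, om_idem]
        split_ifs with h
        · rw [h, smul_eq_mul]
        · simp
    have h7 : om ξ.1 (trunc ℂ f a - push ℂ ι t) ∈ locIdeal M :=
      Cover.om_mem_locIdeal_of_supp_off p hE ξ (sub_mem (trunc_mem_cen f ha) (hc t htc))
        (sub_mem (trunc_mem_SG f hs) (push_mem_SG ι hts)) fun g hg => by
          rw [coeff_sub, Finsupp.sub_apply, coeff_trunc]
          by_cases h8 : g ∈ ι.range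
          · obtain ⟨y, rfl⟩ := h8
            rw [coeff_push_apply hι, coeff_trunc, MonoidHom.comp_apply, sub_self]
            exact zero_mem _
          · rw [coeff_push_of_notMem ι t h8, sub_zero, h1 _ (by
              by_contra h9; exact h8 (hr g hg (by rwa [← orderOf_coe])))]
            exact zero_mem _
    have h8 : trunc ℂ f (a - om κ.1 t • 1) * push ℂ ι (idem {κ}) =
        (trunc ℂ f a - push ℂ ι t) * push ℂ ι (idem {κ}) := by
      rw [map_sub, map_smul, trunc_one (subtype_injective _), sub_mul, sub_mul, ← map_mul, h6,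
        map_smul, smul_mul_assoc, one_mul]
    rw [map_smul, smul_mul_assoc, map_smul, h8, om_mul_cen ξ (hc _ (idem_mem_cen _))]
    exact mul_mem_locIdeal_left (inv_mem_locRing_of_red h4) (mul_mem_locIdeal_right h7
      (om_mem_locRing ξ (hc _ (idem_mem_cen _)) (push_mem_SG ι hκ)))

omit hM [CharP (Res M) p] hp in
theorem exists_deg {N : Subgroup G} [N.Normal] {χ : IrrCharacter G} {θ : IrrCharacter N}
    (h : Cover.Over N χ θ) : ∃ k, charDegree χ.1 = k * charDegree θ.1 ∧ k ≤ N.index := by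
  have := Fintype.ofFinite G
  have := Fintype.ofFinite N
  rw [Cover.over_iff] at h
  obtain ⟨e, he⟩ := exists_nat_inner (isChar_restrict (isChar_irr χ) N) (isChar_irr θ)
  have h1 := Ind.clifford_deg N χ.2 θ.2 h
  rw [he, ← cast_charDegree, ← cast_charDegree] at h1
  have h2 : charDegree χ.1 = e * (Ind.inertia N θ.1).index * charDegree θ.1 := by exact_mod_cast h1
  refine ⟨_, h2, Nat.le_of_mul_le_mul_right (h2 ▸ Ind.deg_le_of_inner_ne_zero
    (Ind.isCharacter_indFun N (isChar_irr θ)) χ.2 (by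
      rw [Ind.frobenius N _ (Ind.cf_of_isIrr χ.2)]; exact Ind.inner_ne_zero_comm h)
    (by rw [Ind.indFun_one, ← cast_charDegree, Nat.cast_mul]) (cast_charDegree χ).symm)
    (Nat.pos_of_ne_zero (charDegree_ne_zero θ))⟩

theorem exists_even_class {s : G →* ℤˣ} {κ : IrrCharacter G}
    (h : (Nat.card G).factorization p ≤ (charDegree κ.1).factorization p) :
    ∃ y, s y = 1 ∧ lam M κ (classSum (Res M) y) ≠ 0 ∧ ¬ p ∣ Nat.card (centralizer ({y} : Set G)) := by
  classical
  have hB : IsPBlock M {κ} := blockOf_eq_singleton (M := M) h ▸ isPBlock_blockOf κ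
  have h0 : ∀ y, (eb M {κ}).coeff y ≠ 0 → ¬ p ∣ Nat.card (centralizer ({y} : Set G)) := by
    intro y hy h1
    have h2 := le_blockDefect_of_coeff_ne_zero (p := p) hB hy
    have h3 := blockDefect_add (p := p) (Set.mem_singleton κ)
      ((height_eq_zero_iff (Set.mem_singleton κ)).2 fun ψ hψ => by rw [hψ])
    have := (hp.out.dvd_iff_one_le_factorization Nat.card_pos.ne').1 h1
    omega
  rcases hp.out.eq_two_or_odd' with rfl | hp2
  · obtain ⟨y, hy⟩ := exists_defectClass 2 hB
    refine ⟨y, ?_, IsDefectClass.lam_ne_zero hy rfl, h0 y (IsDefectClass.coeff_ne_zero hy)⟩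
    obtain ⟨k, hk⟩ := Nat.odd_iff.2 (Nat.two_dvd_ne_zero.1 (IsDefectClass.not_dvd 2 hB hy))
    have h1 := congrArg s (pow_orderOf_eq_one y)
    rwa [hk, map_pow, map_one, pow_succ, pow_mul, Int.units_sq, one_pow, one_mul] at h1
  let f : G →* ℂ := (Int.castRingHom ℂ).toMonoidHom.comp ((Units.coeHom ℤ).comp s)
  let κ' : IrrCharacter G := ⟨κ.1 * f, isIrr_mul_of_apply_one κ.2
    (isChar_of_isIrr (isIrr_monoidHom f)) f.map_one⟩
  have h1 : κ'.1 1 = κ.1 1 := by simp [κ']
  have h2 : idem {κ'} ∈ SG G M := idem_singleton_mem_SG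
    (by rwa [charDegree_eq (h1.trans (cast_charDegree κ).symm)])
  have h3 := idem_singleton_mem_SG (M := M) h
  have h4 : (2 : Res M) ≠ 0 := by
    exact_mod_cast natCast_res_ne_zero (M := M) (p := p) (n := 2) fun h => by
      rw [(Nat.prime_dvd_prime_iff_eq hp.out Nat.prime_two).1 h] at hp2; exact absurd hp2 (by decide)
  obtain ⟨y, h5, h6⟩ := exists_classSum_ne_zero (lam M κ)
    (add_mem (eb_mem_cen {κ}) (eb_mem_cen {κ'})) (by
      rw [map_add, lam_eb_of_mem' h3 rfl]
      by_cases e : κ = κ'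
      · rwa [lam_eb_of_mem' h2 e, one_add_one_eq_two]
      · rw [lam_eb_of_notMem' h2 e, add_zero]; exact one_ne_zero)
  have h7 : blockCoeff {κ'} y = s y * blockCoeff {κ} y := by
    simp only [blockCoeff, finsum_mem_singleton, h1]
    simp [κ', f]
    ring
  rw [coeff_add, Finsupp.add_apply, coeff_eb, coeff_eb, h7] at h5
  rcases Int.units_eq_one_or (s y) with e | e
  · exact ⟨y, e, h6, h0 y fun h8 => h5 (by rw [coeff_eb] at h8; simp [e, h8])⟩
  · exact absurd (by simp [e, red_neg (show blockCoeff {κ} y ∈ _ from h3 y)]) h5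

end Cfsg.Agent.Sym
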