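import Cfsg.Agent.Lib.Sym.Sym4
import Cfsg.Agent.Lib.Sym.Sym5

/-! Blocks of the symmetric and alternating groups. -/

set_option autoImplicit false

namespace Cfsg.Agent.Sym

open MonoidAlgebra Cfsg.Agent.Block Cfsg.Agent.Char Cfsg.Agent.Tr Subgroup Equiv Function

variable {Ω : Type*} [Fintype Ω] [DecidableEq Ω] {M : Ideal AlgInt} [hM : M.IsMaximal] {p : ℕ}
  [hp : Fact p.Prime] [CharP (Res M) p] {m : ℕ} {b γ : Fin m → ℕ}

theorem disjoint_ofSubtype (x : Perm Ω) (y : Perm ↥x.supportᶜ) : (Perm.ofSubtype y).Disjoint x :=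
  fun ω => by
    by_cases h : ω ∈ x.supportᶜ
    · exact .inr (by simpa using h)
    · exact .inl (Perm.ofSubtype_apply_of_not_mem y h)

/-- The permutations of the fixed points of `x`, inside the centralizer of `x`. -/
def io (x : Perm Ω) : Perm ↥x.supportᶜ →* centralizer ({x} : Set (Perm Ω)) :=
  Perm.ofSubtype.codRestrict _ fun y =>
    mem_centralizer_singleton_iff.2 (disjoint_ofSubtype x y).commute

theorem mem_range_io {x : Perm Ω} {g : centralizer ({x} : Set (Perm Ω))} :
    g ∈ (io x).range ↔ ∀ ω, x ω ≠ ω → g.1 ω = ω := by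
  have : g ∈ (io x).range ↔ g.1 ∈ (Perm.ofSubtype (p := (· ∈ x.supportᶜ))).range :=
    exists_congr fun y => Subtype.ext_iff
  rw [this, Perm.mem_range_ofSubtype_iff]
  exact forall_congr' fun ω => by simp [not_imp_comm]

theorem push_io_mem_cen (x : Perm Ω) {t : ℂ[Perm ↥x.supportᶜ]} (ht : t ∈ cen ℂ _) :
    push ℂ (io x) t ∈ cen ℂ _ := by
  have hi : Injective (io x) := fun y z e => Perm.ofSubtype_injective (congrArg Subtype.val e)
  have h1 : ∀ h g : centralizer ({x} : Set (Perm Ω)), g ∈ (io x).range →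
      h * g * h⁻¹ ∈ (io x).range := fun h g hg => mem_range_io.2 fun ω hω => by
    have h2 := (Perm.mem_support_iff_of_commute (mem_centralizer_singleton_iff.1 (h⁻¹).2) ω).2
      (Perm.mem_support.2 hω)
    simpa using congrArg h.1 (mem_range_io.1 hg _ (Perm.mem_support.1 h2))
  refine mem_cen.2 fun h g => ?_
  by_cases hg : g ∈ (io x).range
  · obtain ⟨z, hz⟩ := h1 h g hg
    obtain ⟨y, rfl⟩ := hg
    rw [← hz, coeff_push_apply hi, coeff_push_apply hi]
    refine coeff_eq_of_isConj ht (Perm.isConj_iff_cycleType_eq.2 ?_)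
    rw [← Perm.cycleType_ofSubtype, ← Perm.cycleType_ofSubtype (g := y),
      ← Perm.cycleType_conj (σ := Perm.ofSubtype y) (τ := h.1)]
    exact congrArg (fun g : centralizer ({x} : Set (Perm Ω)) => g.1.cycleType) hz
  · rw [coeff_push_of_notMem _ _ hg, coeff_push_of_notMem _ _ fun h2 => hg (by
      simpa [mul_assoc] using h1 h⁻¹ _ h2)]

/-- The elements of the centralizer of `x` stabilizing each cycle of `x`. -/
def cyc (x : Perm Ω) : Subgroup (centralizer ({x} : Set (Perm Ω))) where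
  carrier := {g | ∀ ω, x.SameCycle ω (g.1 ω)}
  one_mem' := fun _ => Perm.SameCycle.rfl
  mul_mem' := fun ha hb ω => (hb ω).trans (ha _)
  inv_mem' := fun {g} hg ω => by simpa using (hg ((g⁻¹).1 ω)).symm

instance cyc_normal (x : Perm Ω) : (cyc x).Normal := ⟨fun g hg h ω => by
  have := (hg (h.1⁻¹ ω)).conj (g := h.1)
  rw [mem_centralizer_singleton_iff.1 h.2, mul_inv_cancel_right] at this
  simpa using this⟩

omit [Fintype Ω] [DecidableEq Ω] hp in
theorem pow_apply_of_commute {x g : Perm Ω} (h : Commute g x) {ω : Ω} {i : ℕ}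
    (hi : (x ^ i) ω = g ω) (k : ℕ) : (g ^ k) ω = ((x ^ i) ^ k) ω := by
  induction k with
  | zero => rfl
  | succ k ih => rw [pow_succ', Perm.mul_apply, ih, ← Perm.mul_apply, ((h.pow_right i).pow_right k).eq,
      Perm.mul_apply, ← hi, ← Perm.mul_apply, pow_succ]

omit hp in
theorem pow_apply_eq {x g : Perm Ω} (hx : x ^ p = 1) (h : Commute g x) {ω : Ω}
    (hω : x.SameCycle ω (g ω)) : (g ^ p) ω = ω := by
  obtain ⟨i, -, hi⟩ := hω.exists_pow_eq'
  rw [pow_apply_of_commute h hi, ← pow_mul, mul_comm, pow_mul, hx, one_pow, Perm.one_apply]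

omit hp in
theorem isPGroup_cyc {x : Perm Ω} (hx : x ^ p = 1) : IsPGroup p (cyc x) := fun g =>
  ⟨1, Subtype.ext (Subtype.ext (Equiv.ext fun ω => by
    simpa using pow_apply_eq hx (mem_centralizer_singleton_iff.1 g.1.2) (g.2 ω)))⟩

theorem mem_range_io_of_reg {x : Perm Ω} (hx : x ^ p = 1) {g : centralizer ({x} : Set (Perm Ω))}
    (hg : g ∈ centralizer (cyc x : Set (centralizer ({x} : Set (Perm Ω))))) (h : ¬ p ∣ orderOf g) :
    g ∈ (io x).range := by
  refine mem_range_io.2 fun ω hω => ?_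
  have h1 := Perm.self_mem_cycle_factors_commute
    (Perm.cycleOf_mem_cycleFactorsFinset_iff.2 (Perm.mem_support.2 hω))
  have h2 := congrArg Subtype.val (hg ⟨_, mem_centralizer_singleton_iff.2 h1⟩ fun ω' => by
    dsimp only
    rw [Perm.cycleOf_apply]
    split_ifs
    · exact Perm.sameCycle_apply_right.2 Perm.SameCycle.rfl
    · exact Perm.SameCycle.rfl)
  have h3 := (Perm.mem_support_cycleOf_iff' hω).1 ((Perm.mem_support_iff_of_commute h2.symm ω).2
    ((Perm.mem_support_cycleOf_iff' hω).2 Perm.SameCycle.rfl))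
  have h4 := pow_apply_eq hx (mem_centralizer_singleton_iff.1 g.2) h3
  obtain ⟨k, hk⟩ := exists_pow_eq_self_of_coprime (x := g.1)
    ((hp.out.coprime_iff_not_dvd.2 (by rwa [orderOf_coe])))
  rw [← hk, Perm.pow_apply_eq_self_of_apply_eq_self h4]

theorem card_compl_support {x : Perm Ω} {w : ℕ} (hx : x.cycleType = .replicate w p) :
    Fintype.card ↥x.supportᶜ = Fintype.card Ω - p * w := by
  rw [Fintype.card_coe, Finset.card_compl, ← Perm.sum_cycleType, hx, Multiset.sum_replicate,
    smul_eq_mul, mul_comm]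

theorem parts_mul {x : Perm Ω} {w : ℕ} (hx : x.cycleType = .replicate w p) (y : Perm ↥x.supportᶜ) :
    (Perm.ofSubtype y * x).partition.parts = .replicate w p + y.partition.parts := by
  rw [Perm.parts_partition, Perm.parts_partition, ← Perm.sum_cycleType, ← Perm.sum_cycleType,
    (disjoint_ofSubtype x y).cycleType_mul, Perm.cycleType_ofSubtype, card_compl_support hx, hx,
    Multiset.sum_add, Multiset.sum_replicate, smul_eq_mul, mul_comm w, add_comm y.cycleType,
    add_assoc, add_comm y.cycleType.sum, Nat.sub_sub]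

omit hM [CharP (Res M) p] in
theorem Lab.defect_zero {κ : IrrCharacter (Perm Ω)} (h : Lab κ γ) (hd : DC p γ) :
    (Nat.card (Perm Ω)).factorization p ≤ (charDegree κ.1).factorization p := by
  rw [Nat.card_perm, Nat.card_eq_fintype_card, ← h.factorization hp.out, dfc,
    Finset.sum_eq_zero fun i _ => Finset.sum_eq_zero fun t ht => ?_, add_zero]
  obtain ⟨-, h1, h2⟩ := (mem_gp hp.out.pos).1 ht
  obtain ⟨j, hj⟩ := hd i t h1
  exact absurd hj (h2 j)

theorem Lab.red_om {χ : IrrCharacter (Perm Ω)} (h : Lab χ b) {x : Perm Ω}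
    (hx : x.cycleType = .replicate (wt p b) p) {κ : IrrCharacter (Perm ↥x.supportᶜ)}
    (hκ : Lab κ γ) (hd : DC p γ) {σ : Perm (Fin m)} (hσ : core p b = γ ∘ σ) {a : ℂ[Perm Ω]}
    (ha : a ∈ cen ℂ _) (hs : a ∈ SG _ M) (h1 : ∀ g, p ∣ orderOf g → a.coeff g = 0) :
    red M (om χ.1 a) = red M (om κ.1 (trunc ℂ Perm.ofSubtype a)) := by
  have h2 : x ^ p = 1 := Perm.pow_prime_eq_one_iff.2 fun c hc =>
    Multiset.eq_of_mem_replicate (hx ▸ hc)
  obtain ⟨N, h3, h4⟩ := cf_path hp.out.pos _ b h.inj rfl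
  have h5 := hκ.defect_zero hd
  obtain ⟨ε, h6, h7⟩ := h
  obtain ⟨δ, h8, h9⟩ := hκ
  refine red_om_eq (exists_orderOf_eq_pow (k := 1) (by rwa [pow_one])) (io x)
    (fun y z e => Perm.ofSubtype_injective (congrArg Subtype.val e)) (fun t => push_io_mem_cen x)
    (isPGroup_cyc h2) (fun g => mem_range_io_of_reg h2) (idem_singleton_mem_SG h5)
    (c := ((ε * N * Perm.sign σ * δ : ℤ) : ℂ)) (Int.cast_ne_zero.2 (mul_ne_zero (mul_ne_zero
      (mul_ne_zero (left_ne_zero_of_mul_eq_one h6) (by omega)) (Units.ne_zero _))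
        (left_ne_zero_of_mul_eq_one h8))) (fun y => ?_) ha hs h1
  have h10 := h7 (Perm.ofSubtype y * x)
  rw [parts_mul hx, h4, hσ, anti_cf, Int.cast_mul, Int.cast_mul, h9] at h10
  have h11 : (ε : ℂ) * ε = 1 := by exact_mod_cast h6
  simp only [Int.cast_mul]
  change χ.1 (Perm.ofSubtype y * x) = _
  linear_combination (-ε) * h10 - χ.1 (Perm.ofSubtype y * x) * h11

omit hM [CharP (Res M) p] in
theorem Lab.exists_core {χ : IrrCharacter (Perm Ω)} (h : Lab χ b) (hm : 2 * Fintype.card Ω ≤ m) :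
    ∃ x : Perm Ω, x.cycleType = .replicate (wt p b) p ∧
      ∃ κ : IrrCharacter (Perm ↥x.supportᶜ), Lab κ (core p b) := by
  obtain ⟨x, hx⟩ := (Perm.exists_with_cycleType_iff Ω (m := .replicate (wt p b) p)).2
    ⟨by simpa [mul_comm] using mul_wt_le hp.out.pos h.inj h.sum,
      fun a ha => (Multiset.eq_of_mem_replicate ha).symm ▸ hp.out.two_le⟩
  exact ⟨x, hx, exists_irr (by rw [card_compl_support hx]; omega) (inj_core hp.out.pos h.inj)
    (by rw [card_compl_support hx, sum_core_eq hp.out.pos h.inj h.sum])⟩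

/-- Characters with the same core lie in the same block. -/
theorem Lab.sameBlock {χ χ' : IrrCharacter (Perm Ω)} (h : Lab χ b) (hm : 2 * Fintype.card Ω ≤ m)
    {b' : Fin m → ℕ} (h' : Lab χ' b') (he : Eqv p b b') : SameBlock M χ.1 χ'.1 := by
  obtain ⟨x, hx, κ, hκ⟩ := h.exists_core (p := p) hm
  obtain ⟨σ, hσ⟩ := exists_perm_core hp.out.pos h.inj he.1 he.2.1
  have h1 := idem_blockOf_mem_SG (M := M) p χ
  have h2 := fun g => blockCoeff_eq_zero_of_dvd (p := p) (y := g) h1
  refine Cover.mem_of_red_om_idem (M := M) (B := blockOf M χ.1) ?_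
  rw [h'.red_om (by rw [hx, ← wt_add (t := 0) hp.out.pos h.inj he.1 he.2.1 he.2.2]; rfl) hκ
    (dc_core hp.out.pos h.inj) hσ (idem_mem_cen _) h1 h2,
    ← h.red_om (σ := 1) hx hκ (dc_core hp.out.pos h.inj) rfl (idem_mem_cen _) h1 h2,
    om_idem_of_mem (mem_blockOf_self χ), red_one]
  exact one_ne_zero

/-- A defect group of a block of the alternating group moves few points. -/
theorem Lab.exists_supp {χ : IrrCharacter (Perm Ω)} (h : Lab χ b) (hm : 2 * Fintype.card Ω ≤ m)
    {θ : IrrCharacter (alternatingGroup Ω)} (hθ : Cover.Over _ χ θ)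
    {B : Set (IrrCharacter (alternatingGroup Ω))} (hB : IsPBlock M B) (hθB : θ ∈ B)
    {D : Subgroup (alternatingGroup Ω)} (hD : IsDefectGroup p M B D) :
    ∃ T : Finset Ω, (∃ f < p, T.card = p * wt p b + f) ∧ ∀ d ∈ D, d.1.support ⊆ T := by
  obtain ⟨x, hx, κ, hκ⟩ := h.exists_core (p := p) hm
  have hd := dc_core hp.out.pos h.inj
  obtain ⟨y, h1, h2, h3⟩ := exists_even_class (M := M) (s := Perm.sign) (hκ.defect_zero hd)
  have h4 : ¬ p ∣ orderOf (Perm.ofSubtype y) := fun h => h3 ((orderOf_injective _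
    Perm.ofSubtype_injective y ▸ h).trans (orderOf_dvd_natCard _ (self_mem_centralizer_singleton y)))
  have h5 := h.red_om (M := M) (σ := 1) hx hκ hd rfl (classSum_mem_cen (Perm.ofSubtype y))
    (classSum_mem_SG _) fun g hg => coeff_classSum_of_not_isConj fun e =>
      h4 (orderOf_eq_of_isConj e ▸ hg)
  have h6 : trunc ℂ Perm.ofSubtype (classSum ℂ (Perm.ofSubtype y)) = classSum ℂ y := by
    classical
    exact ga_ext fun g => by simp only [coeff_trunc, coeff_classSum, Perm.isConj_iff_cycleType_eq,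
      Perm.cycleType_ofSubtype]
  rw [h6, hθ.om_eq (classSum_mem_cen _) (Cover.classSum_supp _ (by simpa using h1)),
    ← lam_trunc_redA _ θ (classSum_mem_cen _) (classSum_mem_SG _),
    ← lam_redA κ (classSum_mem_cen _) (classSum_mem_SG _), redA_classSum, redA_classSum] at h5
  obtain ⟨c, h7, h8⟩ := IsDefectGroup.exists_coeff_ne_zero hB hD hθB
    (trunc_mem_cen _ (classSum_mem_cen _)) (h5 ▸ h2)
  have h9 : c.1.cycleType = y.cycleType := by
    rw [← Perm.cycleType_ofSubtype (g := y)]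
    exact (Perm.isConj_iff_cycleType_eq.1 (isConj_of_coeff_classSum_ne_zero h8)).symm
  rw [Perm.nat_card_centralizer, mul_assoc, hp.out.dvd_mul, not_or, hp.out.dvd_factorial,
    card_compl_support hx] at h3
  refine ⟨c.1.supportᶜ, ⟨_, not_le.1 h3.1, ?_⟩, fun d hd ω hω => ?_⟩
  · have := mul_wt_le hp.out.pos h.inj h.sum
    have := y.sum_cycleType_le
    rw [card_compl_support hx] at this
    rw [Finset.card_compl, ← Perm.sum_cycleType, h9]
    omega
  · have h10 : Commute d.1 c.1 := congrArg Subtype.val (h7 d hd)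
    have h11 := Perm.mem_support_iff_of_commute h10
    let c' : Perm {ω // ω ∈ c.1.support} := c.1.subtypePerm fun _ => Perm.apply_mem_support
    have h12 : c'.cycleType = y.cycleType := by
      rw [← Perm.cycleType_ofSubtype, Perm.ofSubtype_subtypePerm _ fun _ => Perm.mem_support.2, h9]
    obtain ⟨k, hk⟩ := IsDefectGroup.isPGroup hD ⟨d, hd⟩
    have h13 : d.1.subtypePerm h11 = 1 := eq_one_of_pow_of_not_dvd (p := p) (k := k)
      (by
        have : d.1 ^ p ^ k = 1 := congrArg (fun g : D => g.1.1) hk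
        simp only [Perm.subtypePerm_pow, this]; rfl)
      fun e => h3.2 (by
        have := e.trans (orderOf_dvd_natCard (centralizer {c'}) (mem_centralizer_singleton_iff.2
          (Equiv.ext fun ω => Subtype.ext (congrArg (· ω.1) h10.eq))))
        rwa [Perm.nat_card_centralizer, h12, ← h9, Perm.sum_cycleType, Fintype.card_coe,
          Nat.sub_self, Nat.factorial_zero, one_mul, h9] at this)
    exact Finset.mem_compl.2 fun h14 => Perm.mem_support.1 hω
      (congrArg (fun g : Perm {ω // ω ∈ c.1.support} => (g ⟨ω, h14⟩).1) h13)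

end Cfsg.Agent.Sym
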