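import Cfsg.Agent.Lib.Sym.Sym5
import Cfsg.Agent.Lib.Fit.Frattini
import Cfsg.Agent.Lib.Transfer.Residual

/-! Sylow subgroups of the alternating groups. -/

set_option autoImplicit false

namespace Cfsg.Agent.Sym

open Cfsg.Agent.Block Cfsg.Agent.Char Cfsg.Agent.Tr Subgroup Equiv Function MulAction

variable {Ω : Type*} [Fintype Ω] [DecidableEq Ω] {p : ℕ} [hp : Fact p.Prime]

theorem exists_deg_of_action {Q : Type*} [Group Q] [Finite Q] (hQ : IsPGroup p Q)
    (φ : Q →* Perm Ω) (hΩ : Fintype.card Ω = p ^ 2) {a b : Q} (h : φ (a * b * a⁻¹ * b⁻¹) ≠ 1) :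
    ∃ χ : IrrCharacter Q, charDegree χ.1 = p := by
  have := Fintype.ofFinite Q
  let := MulAction.compHom Ω φ
  set π : Q → ℂ := fun g => Nat.card (fixedBy Ω g) with hπ
  have h1 : IsCharacter Q π := isChar_fixedBy Ω
  have h2 : π 1 = (p ^ 2 : ℕ) := by simp [hπ, hΩ]
  obtain ⟨χ, h3, h4⟩ : ∃ χ : IrrCharacter Q, classInner π χ ≠ 0 ∧
      χ.1 (a * b * a⁻¹ * b⁻¹) ≠ χ.1 1 := by
    by_contra hc
    push Not at hc
    have h3 : π (a * b * a⁻¹ * b⁻¹) = π 1 := by
      rw [apply_eq_sum_inner_mul (isClass_of_isChar h1), apply_eq_sum_inner_mul (isClass_of_isChar h1) 1]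
      refine Finset.sum_congr rfl fun χ _ => ?_
      by_cases h5 : classInner π χ = 0
      · rw [h5, zero_mul, zero_mul]
      · rw [hc χ h5]
    have h4 := (Set.eq_univ_iff_ncard (fixedBy Ω (a * b * a⁻¹ * b⁻¹))).2 (by
      rw [← Nat.card_coe_set_eq, Nat.card_eq_fintype_card (α := Ω), hΩ, ← Nat.cast_inj (R := ℂ)]
      exact h3.trans h2)
    exact h (Equiv.ext fun ω => (h4.ge (Set.mem_univ ω) :))
  have h5 : χ.1 1 ≠ 1 := fun e => h4 (by
    obtain ⟨l, hl⟩ := exists_unitsHom_of_apply_one (isChar_irr χ) e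
    rw [hl]; simp [mul_comm (l a)])
  have h6 : classInner π (irrOne Q).1 ≠ 0 := by
    simp only [classInner, irrOne, map_one, mul_one, hπ]
    refine mul_ne_zero (inv_ne_zero (Ind.card_ne_zero' Q)) ?_
    rw [← Nat.cast_sum, Nat.cast_ne_zero, Ne, Finset.sum_eq_zero_iff]
    intro e
    have := e 1 (Finset.mem_univ _)
    simp [hΩ, hp.out.ne_zero] at this
  have h7 := Ind.deg_le_of_inner_ne_zero (Ind.isChar_sub_of_inner_ne_zero h1 (irrOne Q).2 h6) χ.2
    (by rwa [Ind.inner_sub_left, inner_eq_zero_of_isIrr (irrOne Q).2 χ.2 fun e => h5 (e ▸ rfl),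
      sub_zero]) (a := p ^ 2 - 1) (by
      rw [Pi.sub_apply, h2, Nat.cast_sub (Nat.one_le_pow _ _ hp.out.pos), Nat.cast_one]; rfl)
    (cast_charDegree χ).symm
  obtain ⟨k, hk⟩ := hQ.exists_card_eq
  obtain ⟨j, -, hj⟩ := (Nat.dvd_prime_pow hp.out).1 (hk ▸ charDegree_dvd_card χ)
  have h8 : j < 2 := (Nat.pow_lt_pow_iff_right hp.out.one_lt).1 (by
    have := Nat.one_le_pow 2 _ hp.out.pos; omega)
  refine ⟨χ, ?_⟩
  interval_cases j
  · exact absurd (by rw [← cast_charDegree, hj]; simp) h5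
  · rw [hj, pow_one]

theorem comm_of_card_lt {Q : Subgroup (Perm Ω)} (hQ : IsPGroup p Q) (h : Fintype.card Ω < p ^ 2)
    (a b : Q) : a * b = b * a := by
  rw [← commutatorElement_eq_one_iff_mul_comm]
  refine Subtype.ext (Equiv.ext fun ω => ?_)
  obtain ⟨k, hk⟩ := hQ.index (stabilizer Q ω)
  have h1 : k < 2 := (Nat.pow_lt_pow_iff_right hp.out.one_lt).1 (by
    rw [← hk, index_stabilizer]
    exact (Set.ncard_le_card _).trans_lt (Nat.card_eq_fintype_card.trans_lt h))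
  have h2 : commutator Q ≤ stabilizer Q ω := by
    interval_cases k
    · exact le_top.trans (index_eq_one.1 hk).ge
    · have := Fit.normal_of_index_eq_prime hQ (hk.trans (pow_one p))
      exact Fit.commutator_le_of_index_prime (hk.trans (pow_one p))
  exact h2 (commutator_mem_commutator (mem_top a) (mem_top b))

theorem exists_restrict {P : Subgroup (Perm Ω)} (hP : SylowIn p P ⊤) (L : Subgroup P) [hL : L.Normal]
    {h : P} (hh : h ∈ L) (ω₀ : Ω) : ∃ g : P, g • ω₀ = h • ω₀ ∧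
      ∀ ω, (∀ u ∈ L, u • ω₀ ≠ ω) → g • ω = ω := by
  classical
  let N : Subgroup (Perm Ω) :=
    { carrier := {g | ∀ ω, ∃ h ∈ L, ∀ u ∈ L, g (u • ω) = (h * u) • ω}
      one_mem' := fun ω => ⟨1, one_mem _, fun u _ => by simp⟩
      mul_mem' := fun ha hb ω => by
        obtain ⟨x, h1, h2⟩ := ha ω
        obtain ⟨y, h3, h4⟩ := hb ω
        exact ⟨x * y, mul_mem h1 h3, fun u hu => by
          rw [Perm.mul_apply, h4 u hu, h2 _ (mul_mem h3 hu), mul_assoc]⟩
      inv_mem' := fun ha ω => by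
        obtain ⟨x, h1, h2⟩ := ha ω
        exact ⟨x⁻¹, inv_mem h1, fun u hu => by
          rw [Perm.inv_eq_iff_eq, h2 _ (mul_mem (inv_mem h1) hu), mul_inv_cancel_left]⟩ }
  obtain ⟨k, hk⟩ := hP.isPGroup.exists_card_eq
  have h1 : IsPGroup p N := fun g => ⟨k, Subtype.ext (Equiv.ext fun ω => by
    obtain ⟨x, h1, h2⟩ := g.2 ω
    have h3 : ∀ n : ℕ, (g.1 ^ n) ω = x ^ n • ω := fun n => by
      induction n with
      | zero => simp
      | succ n ih => rw [pow_succ', Perm.mul_apply, ih, h2 _ (pow_mem h1 n), pow_succ']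
    simpa [← hk] using h3 (p ^ k))⟩
  have h2 : ∀ a ∈ P, ∀ g ∈ N, a * g * a⁻¹ ∈ N := fun a ha g hg ω => by
    obtain ⟨x, h1, h2⟩ := hg (a⁻¹ ω)
    refine ⟨_, hL.conj_mem x h1 ⟨a, ha⟩, fun u hu => ?_⟩
    simpa [mul_smul, Subgroup.smul_def] using h2 _ (hL.conj_mem u hu ⟨a, ha⟩⁻¹)
  have h3 : N ≤ P := le_sup_left.trans (hP.eq_of_le (h1.to_sup_of_normal_left' hP.isPGroup
    fun a ha => mem_normalizer_iff.2 fun g => ⟨h2 a ha g, fun hg => by
      simpa [mul_assoc] using h2 _ (inv_mem ha) _ hg⟩) le_sup_right le_top).le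
  have h4 : ∀ u ∈ L, ∀ ω, (∃ v ∈ L, v • ω₀ = u • ω) ↔ ∃ v ∈ L, v • ω₀ = ω := fun u hu ω =>
    ⟨fun ⟨v, h1, h2⟩ => ⟨_, mul_mem (inv_mem hu) h1, by rw [mul_smul, h2, inv_smul_smul]⟩,
      fun ⟨v, h1, h2⟩ => ⟨_, mul_mem hu h1, by rw [mul_smul, h2]⟩⟩
  have h6 : ∀ ω, (fun ω => ∃ v ∈ L, v • ω₀ = ω) (h.1 ω) ↔ (fun ω => ∃ v ∈ L, v • ω₀ = ω) ω :=
    h4 h hh
  refine ⟨⟨Perm.ofSubtype (h.1.subtypePerm h6), h3 fun ω => ?_⟩,
    Perm.ofSubtype_subtypePerm_of_mem (p := fun ω => ∃ v ∈ L, v • ω₀ = ω) h6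
      ⟨1, one_mem _, one_smul _ _⟩, fun ω hω => Perm.ofSubtype_subtypePerm_of_not_mem
        (p := fun ω => ∃ v ∈ L, v • ω₀ = ω) h6 fun ⟨u, h1, h2⟩ => hω u h1 h2⟩
  by_cases h5 : ∃ v ∈ L, v • ω₀ = ω
  · exact ⟨h, hh, fun u hu => Perm.ofSubtype_subtypePerm_of_mem h6 ((h4 u hu ω).2 h5)⟩
  · exact ⟨1, one_mem _, fun u hu => by
      rw [one_mul]; exact Perm.ofSubtype_subtypePerm_of_not_mem h6 (mt (h4 u hu ω).1 h5)⟩

theorem exists_sq {P : Subgroup (Perm Ω)} (hP : SylowIn p P ⊤) {ω₀ : Ω}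
    (h : p ^ 2 ≤ (stabilizer P ω₀).index) : ∃ H : Subgroup P, H.index = p ^ 2 ∧
      stabilizer P ω₀ ≤ H ∧ ∃ a b : P, a * b * a⁻¹ * b⁻¹ ∉ H := by
  have h0 : p < p ^ 2 := by simpa using Nat.pow_lt_pow_right hp.out.one_lt one_lt_two
  obtain ⟨L, hL, h1, h2⟩ := exists_normal_index_prime_of_isPGroup hP.isPGroup
    (H := stabilizer P ω₀) fun e => by
      rw [e, index_top] at h; exact absurd (h0.trans_le h) hp.out.one_lt.not_gt
  obtain ⟨K, -, h3, h4⟩ := exists_normal_index_prime_of_isPGroup (hP.isPGroup.to_subgroup L)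
    (H := (stabilizer P ω₀).subgroupOf L) fun e => by
      rw [h2.antisymm (subgroupOf_eq_top.1 e), h1] at h; exact h0.not_ge h
  have h5 : stabilizer P ω₀ ≤ K.map L.subtype := fun x hx => ⟨⟨x, h2 hx⟩, h4 hx, rfl⟩
  obtain ⟨x, hx⟩ : ∃ x, x ∉ K := by
    by_contra hc
    push Not at hc
    exact hp.out.one_lt.ne (by rw [← h3, (eq_top_iff' K).2 hc, index_top])
  obtain ⟨k, hk⟩ : ∃ k, k ∉ L := by
    by_contra hc
    push Not at hc
    exact hp.out.one_lt.ne (by rw [← h1, (eq_top_iff' L).2 hc, index_top])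
  obtain ⟨g, h6, h7⟩ := exists_restrict hP L x.2 ω₀
  refine ⟨_, by rw [index_map_subtype, h3, h1, sq], h5, g, k, fun h8 => hx ?_⟩
  have h9 := h7 (k⁻¹ • ω₀) fun u hu e => hk ((L.mul_mem_cancel_right hu).1
    (h2 (mem_stabilizer_iff.2 (by rw [mul_smul, e, smul_inv_smul]))))
  have h10 : x.1⁻¹ * (g * k * g⁻¹ * k⁻¹) ∈ stabilizer P ω₀ := by
    rw [mem_stabilizer_iff, mul_smul, mul_smul, mul_smul, inv_smul_eq_iff.2 h9.symm, mul_smul,
      smul_inv_smul, h6, inv_smul_smul]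
  obtain ⟨y, hy, e⟩ := inv_mem (((K.map L.subtype).mul_mem_cancel_right h8).1 (h5 h10))
  rwa [← Subtype.ext (e.trans (inv_inv _))]

theorem swap_mem {P : Subgroup (Perm Ω)} {ω₀ : Ω} {H : Subgroup P} (hH : stabilizer P ω₀ ≤ H)
    {t : P} (ht : t.1.support.card = 2) (h : t ∉ H) : H ≤ stabilizer P ω₀ ∧ t • ω₀ ≠ ω₀ := by
  have h1 : ∀ u ∈ H, u • ω₀ ∈ t.1.support := fun u hu => Perm.mem_support.2 fun e => h (by
    have : u⁻¹ * t * u ∈ H := hH (mem_stabilizer_iff.2 (by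
      rw [mul_smul, mul_smul, inv_smul_eq_iff]; exact e))
    rwa [H.mul_mem_cancel_right hu, H.mul_mem_cancel_left (inv_mem hu)] at this)
  have h2 : ω₀ ∈ t.1.support := by simpa using h1 1 (one_mem _)
  have h3 : t • ω₀ ≠ ω₀ := Perm.mem_support.1 h2
  refine ⟨fun u hu => ?_, h3⟩
  have h4 : ({ω₀, t • ω₀} : Finset Ω) = t.1.support := Finset.eq_of_subset_of_card_le
    (Finset.insert_subset h2 (Finset.singleton_subset_iff.2 (Perm.apply_mem_support.2 h2)))
    (by rw [Finset.card_pair h3.symm, ht])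
  rcases Finset.mem_insert.1 (h4 ▸ h1 u hu) with e | e
  · exact e
  · exact absurd ((H.mul_mem_cancel_left (inv_mem hu)).1 (hH (mem_stabilizer_iff.2 (by
      rw [mul_smul, inv_smul_eq_iff, Finset.mem_singleton.1 e])))) h

theorem exists_cycle {P : Subgroup (Perm Ω)} (hP : SylowIn p P ⊤) (h : p ^ 2 ≤ Fintype.card Ω)
    (h2 : p = 2 → 6 ≤ Fintype.card Ω) : ∃ c ∈ P, c.IsCycle ∧ c.support.card = p ^ 2 ∧
      (p = 2 → ∃ t ∈ P, c.Disjoint t ∧ t.support.card = 2) := by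
  by_cases h3 : p = 2
  · subst h3
    obtain ⟨r, hr⟩ := (Perm.exists_with_cycleType_iff Ω (m := {4, 2})).2
      ⟨h2 rfl, by simp⟩
    obtain ⟨c, t, rfl, h4, h5, h6⟩ := Perm.mem_cycleType_iff.1 (hr ▸ by simp : 4 ∈ r.cycleType)
    rw [h4.cycleType_mul, h5.cycleType, h6, Multiset.singleton_add, Multiset.insert_eq_cons,
      Multiset.cons_inj_right, ← Perm.isSwap_iff_cycleType] at hr
    obtain ⟨x, -, hx⟩ := hP.exists_cj_le (Q := zpowers c ⊔ zpowers t)
      ((isPGroup_zpowers_of_orderOf (k := 2) (h5.orderOf.trans h6)).to_sup_of_normal_left'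
        (isPGroup_zpowers_of_orderOf (k := 1) hr.orderOf) (zpowers_le.2 (centralizer_le_normalizer _
          ((centralizer_zpowers_eq c).ge (mem_centralizer_singleton_iff.2 h4.commute.symm))))) le_top
    exact ⟨_, hx (conj_mem_cj.2 (mem_sup_left (mem_zpowers c))), h5.conj,
      Perm.card_support_conj.trans h6, fun _ => ⟨_, hx (conj_mem_cj.2 (mem_sup_right (mem_zpowers t))),
        h4.conj x, Perm.card_support_conj.trans (Perm.card_support_eq_two.2 hr)⟩⟩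
  · obtain ⟨c, hc⟩ := (Perm.exists_with_cycleType_iff Ω (m := {p ^ 2})).2
      ⟨by simpa, by simpa using hp.out.two_le.trans (Nat.le_self_pow two_ne_zero p)⟩
    have h4 : c.IsCycle := Perm.card_cycleType_eq_one.1 (by simp [hc])
    rw [h4.cycleType, Multiset.singleton_inj] at hc
    obtain ⟨x, -, hx⟩ := hP.exists_conj_mem (mem_top c) (k := 2)
      (by rw [← hc, ← h4.orderOf, pow_orderOf_eq_one])
    exact ⟨_, hx, h4.conj, Perm.card_support_conj.trans hc, fun e => absurd e h3⟩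

/-- A nonabelian Sylow subgroup of an alternating group has a character of degree `p`. -/
theorem exists_deg_of_sylow {Q : Subgroup (Perm Ω)} (hQ : SylowIn p Q (alternatingGroup Ω))
    (h : p ^ 2 ≤ Fintype.card Ω) (h2 : p = 2 → 6 ≤ Fintype.card Ω) :
    ∃ χ : IrrCharacter Q, charDegree χ.1 = p := by
  classical
  obtain ⟨P, hP, hQP⟩ := exists_sylowIn_ge hQ.isPGroup le_top
  have h0 : P ⊓ alternatingGroup Ω = Q := hQ.eq_of_le (hP.isPGroup.to_le inf_le_left)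
    (le_inf hQP hQ.le) inf_le_right
  obtain ⟨c, hc, h3, h4, h5⟩ := exists_cycle hP h h2
  obtain ⟨ω₀, hω⟩ := Finset.card_pos.1 (h4 ▸ pow_pos hp.out.pos 2)
  have h6 : ∀ ω ∈ c.support, ω ∈ orbit P ω₀ := fun ω h => by
    obtain ⟨i, hi⟩ := h3.exists_zpow_eq (Perm.mem_support.1 hω) (Perm.mem_support.1 h)
    exact ⟨⟨_, zpow_mem hc i⟩, hi⟩
  obtain ⟨H, h7, h8, a, b, h9⟩ := exists_sq hP (ω₀ := ω₀) (by
    rw [index_stabilizer, ← h4, ← Set.ncard_coe_finset]; exact Set.ncard_le_ncard h6)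
  let φ := toPermHom P (P ⧸ H)
  have h10 : ∀ g : P, ∃ g' : Q, φ (inclusion hQP g') = φ g := by
    intro g
    rcases Int.units_eq_one_or (Perm.sign g.1) with e | e
    · exact ⟨⟨g, h0.le ⟨g.2, e⟩⟩, rfl⟩
    rcases hp.out.eq_two_or_odd' with rfl | hp2
    · obtain ⟨t, ht, h11, h12⟩ := h5 rfl
      have h13 : φ ⟨t, ht⟩ = 1 := Equiv.ext fun q => by
        induction q using QuotientGroup.induction_on with
        | H x =>
          refine (QuotientGroup.eq.2 ?_).symm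
          by_contra h14
          obtain ⟨h15, h16⟩ := swap_mem h8 (t := x⁻¹ * (⟨t, ht⟩ * x))
            (by simpa [mul_assoc] using (Perm.card_support_conj (σ := x.1⁻¹)).trans h12) h14
          have h17 : x • ω₀ ∈ t.support := Perm.mem_support.2 fun e => h16 (by
            rw [mul_smul, mul_smul, inv_smul_eq_iff]; exact e)
          have h18 := Set.ncard_le_ncard (s := ↑(insert (x • ω₀) c.support)) (t := orbit P ω₀)
            fun ω h => (Finset.mem_insert.1 h).elim (fun e => e ▸ mem_orbit _ _) (h6 ω)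
          rw [Set.ncard_coe_finset, Finset.card_insert_of_notMem fun h =>
            Finset.disjoint_left.1 h11.disjoint_support h h17, ← index_stabilizer,
              h8.antisymm h15, h4, h7] at h18
          omega
      exact ⟨⟨g * t, h0.le ⟨mul_mem g.2 ht, by
        simp [e, (Perm.card_support_eq_two.1 h12).sign_eq]⟩⟩,
          (φ.map_mul g ⟨t, ht⟩).trans (by rw [h13, mul_one])⟩
    · obtain ⟨k, hk⟩ := hP.isPGroup g
      have := congrArg (fun g : P => Perm.sign g.1) hk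
      simp [e, hp2.pow.neg_one_pow] at this
  obtain ⟨a', ha⟩ := h10 a
  obtain ⟨b', hb⟩ := h10 b
  have := Fintype.ofFinite (P ⧸ H)
  refine exists_deg_of_action hQ.isPGroup (φ.comp (inclusion hQP))
    (Nat.card_eq_fintype_card.symm.trans h7) (a := a') (b := b') fun e => h9 ?_
  simp only [MonoidHom.comp_apply, map_mul, map_inv, ha, hb] at e
  rw [← map_inv, ← map_inv, ← map_mul, ← map_mul, ← map_mul] at e
  simpa using QuotientGroup.eq.1 (congrArg (· ((1 : P) : P ⧸ H)) e).symm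

end Cfsg.Agent.Sym
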